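import Mathlib
import Cfsg.Agent.Lib.Chev.WeakCl
import Cfsg.Agent.Lib.BN.Parabolic

/-!
# Maximal parabolic subgroups, their level filtration, and iterated cores (helper5)
-/

set_option autoImplicit false
set_option linter.unusedSectionVars false

namespace H5.Cores

open H38

theorem mem_core {G : Type*} [Group G] {M Y : Subgroup G} {g : G} :
    g ∈ (Y.subgroupOf M).normalCore.map M.subtype ↔ g ∈ M ∧ ∀ p ∈ M, p * g * p⁻¹ ∈ Y := by
  constructor
  · rintro ⟨a, ha, rfl⟩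
    exact ⟨a.2, fun p hp => ha ⟨p, hp⟩⟩
  · rintro ⟨h1, h2⟩
    exact ⟨⟨g, h1⟩, fun p => h2 p p.2, rfl⟩

variable {ι l : Type} [Fintype l] [DecidableEq l] [Finite ι] {R : RS ι l} {K : Type*} [Field K]
  {G : Type*} [Group G] {E : Elts R K G}

/-- Every subgroup over `B` is a standard parabolic subgroup. -/
theorem eq_P_of_le (hF : E.Faith) (htop : E.Gp = ⊤) {M : Subgroup G} (hB : E.B ≤ M) :
    M = E.P {j | E.n (R.sim j) 1 ∈ M} := by
  refine (H13.BN.eq_parabolic_of_le (P := hF.bnPair htop) hB).trans ?_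
  show E.B ⊔ Subgroup.closure _ = E.B ⊔ Subgroup.closure _
  congr 2
  ext g
  constructor
  · rintro ⟨⟨j, rfl⟩, h⟩
    exact ⟨j, h, rfl⟩
  · rintro ⟨j, h, rfl⟩
    exact ⟨⟨j, rfl⟩, h⟩

theorem rep_mem_P {J : Set l} {n : G} {w : Equiv.Perm ι} (h : E.Rep n w) (hw : w ∈ R.WJ J) :
    n ∈ E.P J := E.PS_pos J ▸ h.mem_PS _ hw

theorem s_not_mem {J : Set l} {k : l} (hk : k ∉ J) : R.s k ∉ R.WJ J := fun h => by
  have := R.rt_WJ h (R.sim k) hk
  rw [R.s_sim, R.rt_neg, R.rt_sim] at this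
  simp at this

theorem isCoatom_P (hF : E.Faith) (htop : E.Gp = ⊤) (i : l) : IsCoatom (E.P {j | j ≠ i}) := by
  refine ⟨fun h => ?_, fun M hM => ?_⟩
  · exact s_not_mem (k := i) (by simp) (hF.mem_WJ_of_mem_P (J := {j | j ≠ i})
      (E.rep_n_sim i one_ne_zero) (h ▸ Subgroup.mem_top _))
  · have e := eq_P_of_le hF htop ((E.B_le_P _).trans hM.le)
    by_cases hi : E.n (R.sim i) 1 ∈ M
    · rw [e, ← htop, ← E.P_univ]
      congr 1
      refine Set.eq_univ_of_forall fun j => ?_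
      by_cases hj : j = i
      · exact hj ▸ hi
      · exact hM.le (rep_mem_P (E.rep_n_sim j one_ne_zero) (R.s_mem_WJ hj))
    · refine absurd ?_ hM.not_ge
      rw [e]
      exact E.P_mono fun j hj h => hi (h ▸ hj)

theorem x_neg_mem_P (hF : E.Faith) {J : Set l} {k : l} (hk : k ∉ J) {t : K}
    (h : E.x (R.neg (R.sim k)) t ∈ E.P J) : t = 0 := by
  by_contra ht
  have e := E.x_neg_root (R.sim k) (-t⁻¹)
  rw [show -(-t⁻¹)⁻¹ = t by simp] at e
  have hx := E.B_le_P J (E.U_le_B (E.x_mem_U (R.pos_sim k) (- -t⁻¹)))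
  rw [e, mul_mem_cancel_right hx, mul_mem_cancel_left hx] at h
  exact s_not_mem hk (hF.mem_WJ_of_mem_P (E.rep_n_sim k (by simpa using ht)) h)

theorem conj_not_mem_P (hF : E.Faith) {J : Set l} {j k : l} (hk : k ∉ J) (hjk : j ≠ k)
    (hA : R.A j k ≠ 0) {m b : G} (hm : E.Rep m (R.s k)) (hb : b ∈ E.B) :
    m * (b * E.n (R.sim j) 1) * m⁻¹ ∉ E.P J := by
  intro h
  have hj := E.rep_n_sim j (c := 1) one_ne_zero
  have hn := hj.mul hm.inv
  have hB := E.B_le_P J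
  have e0 : m * (b * E.n (R.sim j) 1) * m⁻¹ = m * b * (E.n (R.sim j) 1 * m⁻¹) := by group
  have r1 : R.rt ((R.s j * (R.s k)⁻¹) (R.sim k)) = -Pi.single k 1 + R.A j k • Pi.single j 1 := by
    rw [R.s_inv, Equiv.Perm.mul_apply, R.s_sim, R.s_apply, R.σ_neg, R.rt_neg, R.rt_σ, R.wt_sim,
      R.rt_sim, R.rt_sim]
    abel
  rcases E.step_B hm hn.mem_N hb with ⟨b1, h1, b2, h2, e⟩ | ⟨b1, h1, b2, h2, e⟩ <;>
    rw [e0, e, mul_mem_cancel_right (hB h2), mul_mem_cancel_left (hB h1)] at h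
  · have := R.rt_WJ (hF.mem_WJ_of_mem_P (hm.mul hn) h) (R.sim k) hk
    rw [Equiv.Perm.mul_apply, R.s_apply, R.rt_σ_self, RS.wt, r1, R.wtv_add, R.wtv_neg,
      R.wtv_smul, R.wtv_single, R.wtv_single, R.A_self, R.rt_sim] at this
    simp [hjk.symm] at this
    have h3 : R.A j k * R.A k j = 0 := by linarith
    rcases mul_eq_zero.1 h3 with h4 | h4
    · exact hA h4
    · exact hA (R.A_eq_zero_comm.1 h4)
  · have := R.rt_WJ (hF.mem_WJ_of_mem_P hn h) (R.sim k) hk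
    rw [r1, R.rt_sim] at this
    simp [hjk.symm] at this

/-- The roots of level at least `k`. -/
def Lev (R : RS ι l) (i : l) (k : ℤ) : Set ι := {r | k ≤ R.rt r i}

theorem mem_lev {i : l} {k : ℤ} {r : ι} : r ∈ Lev R i k ↔ k ≤ R.rt r i := Iff.rfl

theorem pos_of_lev {i : l} {k : ℤ} (hk : 1 ≤ k) {r : ι} (h : r ∈ Lev R i k) : R.Pos r :=
  R.pos_of_coord_pos (j := i) (by have : k ≤ R.rt r i := h; omega)

theorem closed_diff {i : l} {k : ℤ} (hk : 1 ≤ k) {T : Set ι} (hT : ∀ r ∈ T, R.rt r i = k) :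
    R.Closed (Lev R i k \ T) := by
  intro r hr s hs c hc
  obtain ⟨a, b, ha, hb, h, -⟩ := R.cone_coord hc
  have h1 : k ≤ R.rt r i := hr.1
  have h2 : k ≤ R.rt s i := hs.1
  have h3 : k + k ≤ R.rt c i := by rw [h i]; nlinarith
  exact ⟨show k ≤ R.rt c i by omega, fun h4 => by have := hT c h4; omega⟩

theorem closed_lev {i : l} {k : ℤ} (hk : 1 ≤ k) : R.Closed (Lev R i k) := by
  simpa using closed_diff (R := R) (i := i) hk (T := ∅) (by simp)

theorem P_conj_lev (i : l) {k : ℤ} (hk : 1 ≤ k) {g a : G} (hg : g ∈ E.P {j | j ≠ i})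
    (ha : a ∈ E.XS (Lev R i k)) : g * a * g⁻¹ ∈ E.XS (Lev R i k) := by
  rw [E.P_eq, E.mem_XS_sup_H] at hg
  obtain ⟨u, hu, h, hh, rfl⟩ := hg
  have := E.XS_conj_mem (S := Lev R i k) (fun r hr s hs => ?_) hu (E.H_conj_mem_XS hh ha)
  · convert this using 1
    group
  have h1 : 0 ≤ R.rt r i := by
    rcases hr with hr | hr
    · exact (R.pos_iff r).1 hr i
    · exact (hr i (by simp)).ge
  have h2 : k ≤ R.rt s i := hs
  refine ⟨fun e => ?_, fun c hc => ?_⟩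
  · rw [e, R.rt_neg, Pi.neg_apply] at h2
    omega
  · obtain ⟨a, b, ha, hb, h, -⟩ := R.cone_coord hc
    show k ≤ R.rt c i
    rw [h i]; nlinarith

theorem exists_low {i : l} {k : ℤ} (hk : 1 ≤ k) {D : Set ι}
    (hD : ∀ r, R.rt r i = k → r ∉ D → ∃ j, j ≠ i ∧ 0 < R.wt r j) (r : ι) (hr : R.rt r i = k) :
    ∃ w ∈ R.WJ {j | j ≠ i}, w r ∈ D := by
  have key : ∀ (n : ℕ) (r : ι), R.rt r i = k → R.ht r ≤ n → ∃ w ∈ R.WJ {j | j ≠ i}, w r ∈ D := by
    intro n
    induction n with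
    | zero =>
      intro r hr h
      have := (R.ht_pos_iff r).2 (pos_of_lev hk hr.ge)
      omega
    | succ n ih =>
      intro r hr h
      by_cases hd : r ∈ D
      · exact ⟨1, Subgroup.one_mem _, hd⟩
      obtain ⟨j, hj, hw⟩ := hD r hr hd
      obtain ⟨w, hw1, hw2⟩ := ih (R.σ j r) (by rw [R.rt_σ_ne j r hj.symm, hr])
        (by rw [R.ht_σ]; push_cast at h; omega)
      exact ⟨w * R.s j, Subgroup.mul_mem _ hw1 (R.s_mem_WJ hj), by
        rwa [Equiv.Perm.mul_apply, R.s_apply]⟩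
  exact key (R.ht r).toNat r hr (Int.self_le_toNat _)

/-- One step down the filtration. -/
theorem le_lev_succ (hF : E.Faith) {i : l} {k : ℤ} (hk : 1 ≤ k) {D : Set ι}
    (hD : ∀ r, R.rt r i = k → r ∉ D → ∃ j, j ≠ i ∧ 0 < R.wt r j) {N : Subgroup G}
    (hN : ∀ p ∈ E.P {j | j ≠ i}, ∀ g ∈ N, p * g * p⁻¹ ∈ N) (h0 : N ≤ E.XS (Lev R i k))
    (h1 : ∀ d ∈ D, R.rt d i = k → N ≤ E.XS (Lev R i k \ {d})) :
    N ≤ E.XS (Lev R i (k + 1)) := by
  have a : ∀ r, R.rt r i = k → N ≤ E.XS (Lev R i k \ {r}) := fun r hr g hg => by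
    obtain ⟨w, hw, hd⟩ := exists_low hk hD r hr
    obtain ⟨n, hn⟩ := E.exists_rep_of_mem_W (R.WJ_le_W _ hw)
    have h2 := h1 _ hd (by rw [R.rt_WJ hw r (by simp), hr]) (hN n (rep_mem_P hn hw) g hg)
    have h3 := hn.inv_conj_mem_XS (T := Lev R i k \ {r}) (fun s hs => ⟨by
      rw [mem_lev, R.rt_WJ (inv_mem hw) s (by simp)]
      exact hs.1, fun e => hs.2 (by
      rw [Set.mem_singleton_iff] at e ⊢
      rw [← e]; simp)⟩) h2
    convert h3 using 1
    group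
  have b : ∀ T : Set ι, T.Finite → (∀ r ∈ T, R.rt r i = k) → N ≤ E.XS (Lev R i k \ T) := by
    intro T hT
    induction T, hT using Set.Finite.induction_on with
    | empty => intro _; simpa using h0
    | @insert r T _ _ ih =>
      intro h
      have h2 : ∀ s ∈ T, R.rt s i = k := fun s hs => h s (Or.inr hs)
      have h3 : ∀ s ∈ ({r} : Set ι), R.rt s i = k := fun s hs => h s (Or.inl hs)
      have := le_inf (ih h2) (a r (h3 r rfl))
      rw [hF.inf_XS (closed_diff hk h2) (closed_diff hk h3) (fun _ h => pos_of_lev hk h.1)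
        (fun _ h => pos_of_lev hk h.1)] at this
      exact this.trans (E.XS_mono fun s hs => ⟨hs.1.1, fun e => e.elim hs.2.2 hs.1.2⟩)
  refine (b {r | R.rt r i = k} (Set.toFinite _) fun _ h => h).trans (E.XS_mono fun s hs => ?_)
  have h2 : k ≤ R.rt s i := hs.1
  have h3 : R.rt s i ≠ k := hs.2
  show k + 1 ≤ _
  omega

open scoped Pointwise in
/-- A normal subgroup of `P` inside the neighbouring conjugate of `P` lies in `B`. -/
theorem le_B (hF : E.Faith) (htop : E.Gp = ⊤) (hc : R.Connected) {i : l} {m : G}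
    (hm : E.Rep m (R.s i)) {N : Subgroup G} (hP : N ≤ E.P {j | j ≠ i})
    (hN : ∀ p ∈ E.P {j | j ≠ i}, ∀ g ∈ N, p * g * p⁻¹ ∈ N)
    (h : ∀ g ∈ N, m * g * m⁻¹ ∈ E.P {j | j ≠ i}) : N ≤ E.B := by
  have e := eq_P_of_le hF htop (le_sup_left : E.B ≤ E.B ⊔ N)
  have hle : E.B ⊔ N ≤ E.P {j | j ≠ i} := sup_le (E.B_le_P _) hP
  rcases Set.eq_empty_or_nonempty {j | E.n (R.sim j) 1 ∈ E.B ⊔ N} with h0 | h0
  · rw [h0] at e
    refine le_sup_right.trans (e.le.trans ?_)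
    refine sup_le le_rfl ((Subgroup.closure_le _).2 ?_)
    rintro _ ⟨j, hj, -⟩
    exact hj.elim
  exfalso
  obtain ⟨j, hj, k, hk, hA⟩ := hc _ h0 ⟨i, fun hi => s_not_mem (k := i) (by simp)
    (hF.mem_WJ_of_mem_P (J := {j | j ≠ i}) (E.rep_n_sim i one_ne_zero) (hle hi))⟩
  have hjk : j ≠ k := fun e => hk (e ▸ hj)
  have hnorm : E.B ≤ Subgroup.normalizer (N : Set G) := fun b hb => by
    rw [Subgroup.mem_normalizer_iff]
    refine fun g => ⟨hN b (E.B_le_P _ hb) g, fun hg => ?_⟩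
    have := hN b⁻¹ (E.B_le_P _ (inv_mem hb)) _ hg
    convert this using 1
    group
  have hj' : E.n (R.sim j) 1 ∈ ((E.B ⊔ N : Subgroup G) : Set G) := hj
  rw [Subgroup.coe_mul_of_left_le_normalizer_right _ _ hnorm] at hj'
  obtain ⟨b, hb, g, hg, e1⟩ := hj'
  have e2 : g = b⁻¹ * E.n (R.sim j) 1 := by rw [← e1]; simp
  by_cases hki : k = i
  · subst hki
    exact conj_not_mem_P hF (J := {j | j ≠ k}) (by simp) hjk hA hm (inv_mem hb) (e2 ▸ h g hg)
  · refine conj_not_mem_P hF hk hjk hA (E.rep_n_sim k (c := 1) one_ne_zero) (inv_mem hb) ?_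
    rw [← e, ← e2]
    exact Subgroup.mem_sup_right
      (hN _ (rep_mem_P (E.rep_n_sim k one_ne_zero) (R.s_mem_WJ hki)) g hg)

/-- The first core. -/
theorem le_lev_two (hF : E.Faith) (htop : E.Gp = ⊤) (hH : E.H = ⊥) (hc : R.Connected) {i : l}
    (h1 : ∀ r, R.rt r i = 1 → r ≠ R.sim i → ∃ j, j ≠ i ∧ 0 < R.wt r j) {m : G}
    (hm : E.Rep m (R.s i)) {N : Subgroup G} (hP : N ≤ E.P {j | j ≠ i})
    (hN : ∀ p ∈ E.P {j | j ≠ i}, ∀ g ∈ N, p * g * p⁻¹ ∈ N)
    (h : ∀ g ∈ N, m * g * m⁻¹ ∈ E.P {j | j ≠ i}) : N ≤ E.XS (Lev R i 2) := by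
  have hU : N ≤ E.U := by
    have := le_B hF htop hc hm hP hN h
    rwa [PreElts.B, hH, sup_bot_eq] at this
  have h0 : N ≤ E.XS (Lev R i 1) := fun g hg => by
    obtain ⟨n, hn⟩ := E.exists_rep_of_mem_W (R.WJ_le_W _ (R.wJ_mem {j | j ≠ i}))
    refine E.mem_XS_mono (H9.mem_UJ_of_conj hF (hU hg) hn
      (hU (hN n (rep_mem_P hn (R.wJ_mem _)) g hg))) fun r hr => ?_
    have a := (R.pos_iff r).1 hr.1 i
    have b : R.rt r i ≠ 0 := fun e => hr.2 fun j hj => by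
      rwa [show j = i by simpa using hj]
    rw [mem_lev]
    omega
  refine le_lev_succ hF le_rfl (D := {R.sim i}) h1 hN h0 ?_
  rintro _ rfl - g hg
  obtain ⟨a, ha, b, hb, rfl⟩ := E.exists_mul (closed_lev le_rfl) (fun _ h => pos_of_lev le_rfl h)
    (S1 := {R.sim i}) (S2 := {R.sim i}ᶜ) (fun r _ => em _) (h0 hg)
  have ha' := E.mem_XS_mono (T := {R.sim i}) ha fun _ h => h.2
  rw [E.XS_singleton, E.mem_X] at ha'
  obtain ⟨t, rfl⟩ := ha'
  have h2 : m * b * m⁻¹ ∈ E.P {j | j ≠ i} := E.B_le_P _ (E.U_le_B (hm.conj_mem_XS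
    (fun s hs => (R.pos_s_iff (pos_of_lev le_rfl hs.1)).2 hs.2) hb))
  have h3 := h _ hg
  rw [show m * (E.x (R.sim i) t * b) * m⁻¹ = m * E.x (R.sim i) t * m⁻¹ * (m * b * m⁻¹) by group,
    mul_mem_cancel_right h2] at h3
  obtain ⟨c, hc0, e⟩ := hm.conj_x (R.sim i)
  rw [e, R.s_sim] at h3
  have := x_neg_mem_P hF (k := i) (by simp) h3
  rw [(mul_eq_zero.1 this).resolve_left hc0, E.x_zero, one_mul]
  exact hb

/-- The later cores. -/
theorem le_lev_next (hF : E.Faith) {i : l} {k : ℤ} (hk : 2 ≤ k) {m : G}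
    (hm : E.Rep m (R.s i)) {N : Subgroup G}
    (hN : ∀ p ∈ E.P {j | j ≠ i}, ∀ g ∈ N, p * g * p⁻¹ ∈ N) (h0 : N ≤ E.XS (Lev R i k))
    (h : ∀ g ∈ N, m * g * m⁻¹ ∈ E.XS (Lev R i k)) : N ≤ E.XS (Lev R i (k + 1)) := by
  have hk1 : 1 ≤ k := by omega
  refine le_lev_succ hF hk1 (D := {r | 0 < R.wt r i}) (fun r hr hd => ?_) hN h0 fun d hd hd' g hg => ?_
  · obtain ⟨j, -, hj⟩ := R.exists_wt_pos (pos_of_lev hk1 hr.ge)
    exact ⟨j, fun e => hd (e ▸ hj), hj⟩
  have h2 : g ∈ E.XS (R.s i ⁻¹' Lev R i k) := by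
    have := hm.inv_conj_mem_XS (T := R.s i ⁻¹' Lev R i k) (fun s hs => by simpa using hs) (h g hg)
    convert this using 1
    group
  have h3 : g ∈ E.XS (Lev R i k) ⊓ E.XS (R.s i ⁻¹' Lev R i k) := ⟨h0 hg, h2⟩
  rw [hF.inf_XS (closed_lev hk1) ((closed_lev hk1).preimage (R.s_mem_W i))
    (fun _ h => pos_of_lev hk1 h) fun r hr => ?_] at h3
  · refine E.mem_XS_mono h3 fun r hr => ⟨hr.1, ?_⟩
    rintro rfl
    have a : k ≤ R.rt (R.σ i r) i := R.s_apply i r ▸ hr.2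
    have b : 0 < R.wt r i := hd
    rw [R.rt_σ_self] at a
    omega
  · have a : k ≤ R.rt (R.σ i r) i := R.s_apply i r ▸ hr
    have := R.pos_σ (i := i) (pos_of_lev hk1 (r := R.σ i r) a) fun e => by
      rw [e, R.rt_sim, Pi.single_eq_same] at a
      omega
    rwa [R.σ_σ] at this

/-- The iterated cores of a maximal parabolic subgroup and its neighbour. -/
theorem cores (hF : E.Faith) (htop : E.Gp = ⊤) (hH : E.H = ⊥) (hc : R.Connected) {i : l}
    (h1 : ∀ r, R.rt r i = 1 → r ≠ R.sim i → ∃ j, j ≠ i ∧ 0 < R.wt r j)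
    (h2 : ∀ r, r ≠ R.sim i → R.wt r i ≤ 1) {m : G} (hm : E.Rep m (R.s i)) (A B : ℕ → Subgroup G)
    (hA0 : A 0 = E.P {j | j ≠ i}) (hB0 : B 0 = (E.P {j | j ≠ i}).map (MulAut.conj m).toMonoidHom)
    (hA : ∀ k, A (k + 1) = ((A k ⊓ B k).subgroupOf (A 0)).normalCore.map (A 0).subtype)
    (hB : ∀ k, B (k + 1) = ((A k ⊓ B k).subgroupOf (B 0)).normalCore.map (B 0).subtype) (k : ℕ) :
    A (k + 1) = E.XS (Lev R i (k + 2)) := by
  have hmm : m * m = 1 := by
    have := hm.mul hm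
    rw [R.s_mul_self] at this
    have := this.mem_H
    rwa [hH, Subgroup.mem_bot] at this
  have hi : m⁻¹ = m := inv_eq_of_mul_eq_one_right hmm
  have c2 : ∀ g, m * (m * g * m⁻¹) * m⁻¹ = g := fun g => by
    calc _ = (m * m) * g * (m * m)⁻¹ := by group
      _ = g := by rw [hmm]; simp
  have sym : ∀ k g, g ∈ B k ↔ m * g * m⁻¹ ∈ A k := by
    have s0 : ∀ g, g ∈ B 0 ↔ m * g * m⁻¹ ∈ A 0 := fun g => by
      rw [hA0, hB0]
      constructor
      · rintro ⟨a, ha, rfl⟩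
        exact (c2 a).symm ▸ ha
      · exact fun h => ⟨_, h, c2 g⟩
    intro k
    induction k with
    | zero => exact s0
    | succ k ih =>
      intro g
      rw [hA, hB, mem_core, mem_core, s0]
      refine and_congr_right fun _ => ⟨fun h p hp => ?_, fun h p hp => ?_⟩
      · have := h (m * p * m⁻¹) ((s0 _).2 ((c2 p).symm ▸ hp))
        have e : p * (m * g * m⁻¹) * p⁻¹ = m * (m * p * m⁻¹ * g * (m * p * m⁻¹)⁻¹) * m⁻¹ := by
          conv_lhs => rw [← c2 p]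
          group
        rw [e]
        exact ⟨(ih _).1 this.2, (ih _).2 ((c2 _).symm ▸ this.1)⟩
      · have := h _ ((s0 p).1 hp)
        rw [show m * p * m⁻¹ * (m * g * m⁻¹) * (m * p * m⁻¹)⁻¹ = m * (p * g * p⁻¹) * m⁻¹ by group]
          at this
        exact ⟨(c2 (p * g * p⁻¹)) ▸ (ih _).1 this.2, (ih _).2 this.1⟩
  have nrm : ∀ k, ∀ p ∈ E.P {j | j ≠ i}, ∀ g ∈ A (k + 1), p * g * p⁻¹ ∈ A (k + 1) := by
    intro k p hp g hg
    rw [hA, mem_core, hA0] at hg ⊢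
    refine ⟨mul_mem (mul_mem hp hg.1) (inv_mem hp), fun q hq => ?_⟩
    have := hg.2 _ (mul_mem hq hp)
    convert this using 1
    group
  have dn : ∀ k, ∀ g ∈ A (k + 1), g ∈ A k ∧ m * g * m⁻¹ ∈ A k := by
    intro k g hg
    rw [hA, mem_core] at hg
    have := hg.2 1 (one_mem _)
    simp only [one_mul, inv_one, mul_one] at this
    exact ⟨this.1, (sym _ _).1 this.2⟩
  have low : ∀ k : ℕ, E.XS (Lev R i (k + 1)) ≤ A k := by
    have l0 : ∀ k : ℤ, 1 ≤ k → E.XS (Lev R i k) ≤ E.P {j | j ≠ i} := fun k hk =>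
      (E.XS_mono fun _ h => pos_of_lev hk h).trans (E.U_le_B.trans (E.B_le_P _))
    intro k
    induction k with
    | zero => exact hA0 ▸ l0 _ (by simp)
    | succ k ih =>
      intro g hg
      rw [hA, mem_core, hA0]
      refine ⟨l0 _ (by omega) hg, fun p hp => ?_⟩
      have a := P_conj_lev i (by omega) hp hg
      refine ⟨ih (E.mem_XS_mono a fun r hr => ?_), (sym _ _).2 (ih (hm.conj_mem_XS
        (fun r hr => ?_) a))⟩
      · have : ((k + 1 : ℕ) : ℤ) + 1 ≤ R.rt r i := hr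
        rw [mem_lev]
        omega
      · have b : ((k + 1 : ℕ) : ℤ) + 1 ≤ R.rt r i := hr
        have := h2 r fun e => by
          rw [e, R.rt_sim, Pi.single_eq_same] at b
          omega
        rw [mem_lev, R.s_apply, R.rt_σ_self]
        omega
  refine le_antisymm ?_ (by simpa [add_assoc] using low (k + 1))
  induction k with
  | zero =>
    exact le_lev_two hF htop hH hc h1 hm (fun g hg => hA0 ▸ (dn 0 g hg).1) (nrm 0)
      fun g hg => hA0 ▸ (dn 0 g hg).2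
  | succ k ih =>
    have := le_lev_next hF (k := k + 2) (by omega) hm (nrm (k + 1))
      (fun g hg => ih (dn _ g hg).1) fun g hg => ih (dn _ g hg).2
    convert this using 3
    push_cast
    ring

end H5.Cores
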