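import Mathlib
import Cfsg.Agent.Lib.H5.E2LocD
import Cfsg.Agent.Lib.Mdl.VOrb

/-! Orbits of root vectors counted by cells (helper5). -/

set_option autoImplicit false
set_option maxRecDepth 100000
set_option exponentiation.threshold 1000000

namespace H5.E2
open H15.Mdl Matrix Subgroup
open H54 (dig nth force force_eq allLt allLt_iff sel sel_eq band band_eq_true bor bor_eq_true anyL
  anyL_iff allL allL_iff)

attribute [local irreducible] oo oo_act ad RM α

variable {G : Type*} [Group G] {τ : G →* MM}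

theorem le_card_rel {H J : Subgroup G} [Finite H] (hJ : J ≤ H) {β : Type*} (R : G → β → Prop)
    (h1 : ∀ g, ∀ j ∈ J, ∀ a b, R g a → R (g * j) b → a = b) (S : Finset β)
    (h : ∀ s ∈ S, ∃ g ∈ H, R g s) : S.card * Nat.card J ≤ Nat.card H := by
  choose t ht hm using fun s : S => h s s.2
  have hinj : Function.Injective
      fun z : S × J => (⟨t z.1 * z.2, H.mul_mem (ht _) (hJ z.2.2)⟩ : H) := by
    rintro ⟨i, u⟩ ⟨j, v⟩ e
    have e1 : t i * u = t j * v := congrArg Subtype.val e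
    have e2 : i = j := Subtype.ext (h1 (t i) (u * (v : G)⁻¹) (J.mul_mem u.2 (J.inv_mem v.2)) _ _ (hm i) (by
      rw [← mul_assoc, e1, mul_inv_cancel_right]; exact hm j))
    subst e2
    rw [Subtype.ext ((mul_right_inj _).1 e1 : (u : G) = v)]
  simpa using Nat.card_le_card_of_injective _ hinj

theorem exists_union {β : Type*} (S T : Finset β) (h : ∀ v ∈ S, v ∉ T) :
    ∃ U : Finset β, U.card = S.card + T.card ∧ ∀ v ∈ U, v ∈ S ∨ v ∈ T :=
  ⟨S.disjUnion T (Finset.disjoint_left.2 h), by simp, by simp⟩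

theorem exists_double {β : Type*} (S : Finset β) {f : β → β} (hf : Function.Injective f)
    (h : ∀ v ∈ S, f v ∉ S) :
    ∃ U : Finset β, U.card = 2 * S.card ∧ ∀ v ∈ U, v ∈ S ∨ ∃ w ∈ S, f w = v := by
  obtain ⟨U, u1, u2⟩ := exists_union S (S.map ⟨f, hf⟩) fun v hv k => by
    obtain ⟨w, hw, rfl⟩ := Finset.mem_map.1 k
    exact h w hw hv
  exact ⟨U, by rw [u1, Finset.card_map, two_mul], fun v hv => (u2 v hv).imp_right Finset.mem_map.1⟩

/-- the pointwise stabiliser of a list of coded vectors -/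
def Fs (τ : G →* MM) (B : List ℕ) : Subgroup G where
  carrier := {g | ∀ x ∈ B, τ g *ᵥ vec x = vec x}
  one_mem' := fun x _ => by simp
  mul_mem' := fun a b x hx => by rw [act_mul, b x hx, a x hx]
  inv_mem' := fun a x hx => by conv_lhs => rw [← a x hx, act_inv]

theorem mem_Fs_cons {g : G} {x : ℕ} {B : List ℕ} :
    g ∈ Fs τ (x :: B) ↔ τ g *ᵥ vec x = vec x ∧ g ∈ Fs τ B := List.forall_mem_cons

theorem Fs_nil : Fs τ [] = ⊤ := eq_top_iff.2 fun _ _ _ h => absurd h List.not_mem_nil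

theorem act_inj (g : G) : Function.Injective fun v : W => τ g *ᵥ v := fun v w e =>
  (act_inv (τ := τ) g v).symm.trans ((congrArg (τ g⁻¹ *ᵥ ·) e).trans (act_inv g w))

/-- the support of `v` lies in the mask `m` -/
def Sub (m : ℕ) (v : W) : Prop := ∀ i : Fin 78, v i ≠ 0 → m.testBit i = true

theorem RV.apply {v : W} {x : ℕ} (a : RV v x) (i : Fin 78) : v i = if x.testBit i then 1 else 0 := by
  rw [a.2, vec, dec_stdB]

theorem RV.sub {v : W} {x : ℕ} (a : RV v x) : Sub x v := fun i hi => by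
  rw [a.apply] at hi
  by_contra h
  exact hi (if_neg h)

theorem Sub.mono {m m' : ℕ} {v : W} (a : Sub m v) (h : Nat.lor m m' = m') : Sub m' v := fun i hi => by
  rw [← h]
  exact (Nat.testBit_or m m' i).trans (by rw [a i hi]; rfl)

theorem Sub.orl {m : ℕ} {v : W} (a : Sub m v) (m' : ℕ) : Sub (Nat.lor m m') v := fun i hi =>
  (Nat.testBit_or m m' i).trans (by rw [a i hi]; rfl)

theorem Sub.orr {m : ℕ} {v : W} (a : Sub m v) (m' : ℕ) : Sub (Nat.lor m' m) v := fun i hi =>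
  (Nat.testBit_or m' m i).trans (by rw [a i hi, Bool.or_true])

theorem Sub.zero (m : ℕ) : Sub m 0 := fun _ h => absurd rfl h

theorem Sub.add {m : ℕ} {v w : W} (a : Sub m v) (b : Sub m w) : Sub m (v + w) := fun i hi => by
  by_cases h : v i = 0
  · exact b i fun e => hi (by rw [Pi.add_apply, h, e, add_zero])
  · exact a i h

theorem Sub.code {m x : ℕ} {v : W} (a : Sub m v) (r : RV v x) : Nat.lor x m = m :=
  Nat.eq_of_testBit_eq fun i => (Nat.testBit_or x m i).trans (by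
    cases h : x.testBit i
    · rfl
    · have hi : i < 78 := by
        by_contra k
        rw [Nat.testBit_lt_two_pow (r.1.trans_le (Nat.pow_le_pow_right (by norm_num) (by omega)))] at h
        exact Bool.noConfusion h
      rw [a ⟨i, hi⟩ (by rw [r.apply, if_pos h]; decide)]; rfl)

theorem Sub.ind {m : ℕ} {P : W → Prop} (h0 : P 0) (ha : ∀ v w, P v → P w → P (v + w))
    (hs : ∀ k, k < 78 → m.testBit k = true → P (stdB 78 k)) {v : W} (a : Sub m v) : P v := by
  rw [← Finset.univ_sum_single v]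
  refine Finset.sum_induction _ P ha h0 fun k _ => ?_
  rcases (by decide : ∀ t : ZMod 2, t = 0 ∨ t = 1) (v k) with e | e <;> rw [e]
  · simpa using h0
  · exact stdB_eq k ▸ hs k k.2 (a k (by rw [e]; decide))

theorem sub_all (v : W) : Sub (2 ^ 78 - 1) v := fun i _ => by
  rw [Nat.testBit_two_pow_sub_one]; simp

/-- bit `k` of `m` -/
def bit (m k : ℕ) : ℕ := Nat.land (Nat.shiftRight m k) 1

theorem bit_eq (m k : ℕ) : bit m k = if m.testBit k then 1 else 0 := by
  show (m >>> k) &&& 1 = _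
  rw [Nat.and_one_is_mod, Nat.testBit_eq_decide_div_mod_eq, Nat.shiftRight_eq_div_pow]
  rcases Nat.mod_two_eq_zero_or_one (m / 2 ^ k) with e | e <;> simp [e]

/-- the union of `f k` over the bits `k` of `m` -/
noncomputable def orF (f : ℕ → ℕ) (m n : ℕ) : ℕ :=
  Nat.rec (motive := fun _ => ℕ) 0 (fun k ih => Nat.lor ih (sel (Nat.beq (bit m k) 1) (f k) 0)) n

theorem orF_succ (f : ℕ → ℕ) (m n : ℕ) :
    orF f m (n + 1) = Nat.lor (orF f m n) (sel (Nat.beq (bit m n) 1) (f n) 0) := rfl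

theorem Sub.orF {f : ℕ → ℕ} {m k : ℕ} {v : W} (a : Sub (f k) v) (hm : m.testBit k = true) :
    ∀ n, k < n → Sub (orF f m n) v
  | n + 1, h => by
    rw [orF_succ]
    rcases Nat.lt_succ_iff_lt_or_eq.1 h with h | rfl
    · exact (a.orF hm n h).orl _
    · rw [bit_eq, if_pos hm]; exact a.orr _

/-- the union of the columns of `q` with index in `m` -/
noncomputable def orc (q m : ℕ) : ℕ := force q fun q => force m fun m => orF (dig 78 q) m 78

theorem Sub.act {A : MM} {q m : ℕ} {v : W} (r : RM A q) (a : Sub m v) : Sub (orc q m) (A *ᵥ v) := by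
  rw [orc, force_eq, force_eq]
  refine a.ind (P := fun v => Sub _ (A *ᵥ v)) (by simpa using Sub.zero _) (fun v w x y => ?_)
    fun k hk hm => (r.col hk).sub.orF hm 78 hk
  rw [mulVec_add]; exact x.add y

attribute [local irreducible] orc

/-- the mask of a bracket -/
noncomputable def brm (m m' : ℕ) : ℕ :=
  force m fun m => force m' fun m' => orF (fun k => orc (nth AL k) m') m 78

theorem Sub.br {m m' : ℕ} {v w : W} (a : Sub m v) (b : Sub m' w) : Sub (brm m m') (br v w) := by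
  rw [brm, force_eq, force_eq]
  refine a.ind (P := fun v => Sub _ (E2.br v w)) (by simpa [E2.br] using Sub.zero _)
    (fun v w x y => ?_) fun k hk hm =>
      Sub.orF (f := fun k => orc (nth AL k) m') (k := k) (b.act (RM_α_std hk)) hm 78 hk
  rw [E2.br, map_add, add_mulVec]; exact x.add y

/-- the root element `j` fixes the vectors of `B` -/
noncomputable def okL (B : List ℕ) (j : ℕ) : Bool :=
  band (Nat.ble (Nat.succ j) 72) (allL (fun x => Nat.beq (oo_act (nth RT j) x) x) B)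

theorem RG.fix {g : G} {q x : ℕ} (r : RG τ g q) (hx : x < 2 ^ 78) (e : oo_act q x = x) :
    τ g *ᵥ vec x = vec x := ((RV.act r (RV_vec hx)).eq_iff (RV_vec hx)).2 e

theorem RG.mv {g : G} {q x y : ℕ} (r : RG τ g q) (hx : x < 2 ^ 78) (e : oo_act q x = y) :
    τ g *ᵥ vec x = vec y := e ▸ (RV.act r (RV_vec hx)).2

theorem Md.okL (h : Md τ) {B : List ℕ} (hB : ∀ x ∈ B, x < 2 ^ 78) {j : ℕ} (c : okL B j = true) :
    ∃ g ∈ Fs τ B, RG τ g (nth RT j) := by
  rw [E2.okL, band_eq_true, allL_iff, Nat.ble_eq] at c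
  obtain ⟨g, r⟩ := h.rt j c.1
  exact ⟨g, fun x hx => r.fix (hB x hx) (Nat.eq_of_beq_eq_true (c.2 x hx)), r⟩

/-- the orbit of `b` under the stabiliser of `B` -/
def Orb (τ : G →* MM) (B : List ℕ) (b : ℕ) (v : W) : Prop := ∃ g ∈ Fs τ B, τ g *ᵥ vec b = v

theorem Orb.act {B : List ℕ} {b : ℕ} {v : W} (a : Orb τ B b v) {g : G} (hg : g ∈ Fs τ B) :
    Orb τ B b (τ g *ᵥ v) := by
  obtain ⟨k, hk, rfl⟩ := a
  exact ⟨g * k, mul_mem hg hk, act_mul _ _ _⟩

/-- a word applied to a vector -/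
noncomputable def wactO (act : ℕ → ℕ → ℕ) (w : List ℕ) (x : ℕ) : ℕ :=
  List.rec (motive := fun _ => ℕ) x (fun j _ ih => act (nth RT j) ih) w

theorem wactO_cons (act : ℕ → ℕ → ℕ) (j : ℕ) (w : List ℕ) (x : ℕ) :
    wactO act (j :: w) x = act (nth RT j) (wactO act w x) := rfl

theorem Md.wact (h : Md τ) {B : List ℕ} (hB : ∀ x ∈ B, x < 2 ^ 78) {b : ℕ} (hb : b < 2 ^ 78) :
    ∀ w : List ℕ, allL (E2.okL B) w = true → ∃ v, Orb τ B b v ∧ RV v (wactO oo_act w b)
  | [], _ => ⟨vec b, ⟨1, one_mem _, by simp⟩, RV_vec hb⟩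
  | j :: w, c => by
    rw [allL_iff, List.forall_mem_cons, ← allL_iff] at c
    obtain ⟨v, a, r⟩ := h.wact hB hb w c.2
    obtain ⟨g, hg, rg⟩ := h.okL hB c.1
    exact ⟨_, a.act hg, wactO_cons _ _ _ _ ▸ RV.act rg r⟩

/-- a cell: every step doubles the set -/
noncomputable def cellO (act : ℕ → ℕ → ℕ) (B : List ℕ) (e Wf : ℕ) (st : List (ℕ × ℕ)) : ℕ → Bool :=
  List.rec (motive := fun _ => ℕ → Bool) (fun m => Nat.beq m Wf) (fun s _ ih m =>
    force (Nat.xor (act (nth RT s.1) e) e) fun d => force (Nat.lor m (orc (nth RT s.1) m)) fun o =>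
      band (okL B s.1) (band (Nat.ble (Nat.succ s.2) 78) (band (Nat.beq (bit d s.2) 1)
        (band (Nat.beq (bit o s.2) 0) (force (Nat.lor o d) ih))))) st

theorem cellO_cons (act : ℕ → ℕ → ℕ) (B : List ℕ) (e Wf : ℕ) (s : ℕ × ℕ) (st : List (ℕ × ℕ)) (m : ℕ) :
    cellO act B e Wf (s :: st) m = band (okL B s.1) (band (Nat.ble (Nat.succ s.2) 78)
      (band (Nat.beq (bit (Nat.xor (act (nth RT s.1) e) e) s.2) 1)
        (band (Nat.beq (bit (Nat.lor m (orc (nth RT s.1) m)) s.2) 0) (cellO act B e Wf st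
          (Nat.lor (Nat.lor m (orc (nth RT s.1) m)) (Nat.xor (act (nth RT s.1) e) e)))))) := rfl

theorem Md.cell (h : Md τ) {B : List ℕ} (hB : ∀ x ∈ B, x < 2 ^ 78) {b e Wf : ℕ} {E : W} (re : RV E e) :
    ∀ (st : List (ℕ × ℕ)) (m : ℕ) (S : Finset W), (∀ v ∈ S, Orb τ B b v ∧ Sub m (v + E)) →
    cellO oo_act B e Wf st m = true →
    ∃ T : Finset W, T.card = 2 ^ st.length * S.card ∧ ∀ v ∈ T, Orb τ B b v ∧ Sub Wf (v + E)
  | [], m, S, a, c => ⟨S, by simp, Nat.eq_of_beq_eq_true c ▸ a⟩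
  | s :: st, m, S, a, c => by
    rw [cellO_cons] at c
    simp only [band_eq_true, Nat.ble_eq, Nat.beq_eq, bit_eq] at c
    obtain ⟨c1, c2, c3, c4, c5⟩ := c
    obtain ⟨g, hg, rg⟩ := h.okL hB c1
    have rd := (RV.act rg re).add re
    have e1 : ∀ v, τ g *ᵥ v + E = τ g *ᵥ (v + E) + (τ g *ᵥ E + E) := fun v => by
      rw [mulVec_add, add_assoc, ← add_assoc (τ g *ᵥ E), add_self_W, zero_add]
    have n4 : ∀ v, Sub (Nat.lor m (orc (nth RT s.1) m)) v → v ⟨s.2, c2⟩ = 0 := fun v k => by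
      by_contra e
      rw [if_pos (k _ e)] at c4
      exact one_ne_zero c4
    obtain ⟨U, u1, u2⟩ := exists_double S (act_inj (τ := τ) g) fun w hw hv => by
      have := n4 _ ((a _ hv).2.orl _)
      rw [e1, Pi.add_apply, n4 _ (((a w hw).2.act rg).orr _), zero_add, rd.apply] at this
      by_cases k : (Nat.xor (oo_act (nth RT s.1) e) e).testBit s.2 = true
      · rw [if_pos k] at this; exact one_ne_zero this
      · rw [if_neg k] at c3; exact zero_ne_one c3
    obtain ⟨T, t1, t2⟩ := h.cell hB re st _ U (fun v hv => by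
      rcases u2 v hv with hv | ⟨w, hw, rfl⟩
      · exact ⟨(a v hv).1, ((a v hv).2.orl _).orl _⟩
      · refine ⟨(a w hw).1.act hg, ?_⟩
        rw [e1]
        exact ((((a w hw).2.act rg).orr _).orl _).add (rd.sub.orr _)) c5
    exact ⟨T, by rw [t1, u1, List.length_cons, pow_succ, mul_assoc], t2⟩

/-- representative, its word, the steps, the final mask -/
abbrev Cell : Type := ℕ × List ℕ × List (ℕ × ℕ) × ℕ

/-- the cells are correct and disjoint -/
noncomputable def levO (act : ℕ → ℕ → ℕ) (B : List ℕ) (b : ℕ) (L : List Cell) : Bool :=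
  List.rec (motive := fun _ => Bool) true (fun c L ih =>
    band (allL (okL B) c.2.1) (band (Nat.beq (wactO act c.2.1 b) c.1)
      (band (cellO act B c.1 c.2.2.2 c.2.2.1 0) (band (allL (fun d : Cell => bnot (Nat.beq
        (Nat.lor (Nat.xor c.1 d.1) (Nat.lor c.2.2.2 d.2.2.2)) (Nat.lor c.2.2.2 d.2.2.2))) L) ih)))) L

theorem levO_cons (act : ℕ → ℕ → ℕ) (B : List ℕ) (b : ℕ) (c : Cell) (L : List Cell) :
    levO act B b (c :: L) = band (allL (okL B) c.2.1) (band (Nat.beq (wactO act c.2.1 b) c.1)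
      (band (cellO act B c.1 c.2.2.2 c.2.2.1 0) (band (allL (fun d : Cell => bnot (Nat.beq
        (Nat.lor (Nat.xor c.1 d.1) (Nat.lor c.2.2.2 d.2.2.2)) (Nat.lor c.2.2.2 d.2.2.2))) L)
        (levO act B b L)))) := rfl

theorem Md.lev (h : Md τ) {B : List ℕ} (hB : ∀ x ∈ B, x < 2 ^ 78) {b : ℕ} (hb : b < 2 ^ 78) :
    ∀ L : List Cell, levO oo_act B b L = true → ∃ T : Finset W,
      T.card = (L.map fun c => 2 ^ c.2.2.1.length).sum ∧
      ∀ v ∈ T, Orb τ B b v ∧ ∃ c ∈ L, ∃ E, RV E c.1 ∧ Sub c.2.2.2 (v + E)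
  | [], _ => ⟨∅, by simp⟩
  | c :: L, k => by
    rw [levO_cons] at k
    simp only [band_eq_true, Nat.beq_eq] at k
    obtain ⟨c1, c2, c3, c4, c5⟩ := k
    obtain ⟨T, t1, t2⟩ := h.lev hB hb L c5
    obtain ⟨E, oE, rE⟩ := h.wact hB hb _ c1
    rw [c2] at rE
    obtain ⟨S, s1, s2⟩ := h.cell hB (b := b) rE _ 0 {E} (by simpa [add_self_W] using ⟨oE, Sub.zero 0⟩) c3
    obtain ⟨U, u1, u2⟩ := exists_union S T fun v hv hw => by
      obtain ⟨-, d, hd, F, rF, sF⟩ := t2 v hw
      have := (((s2 v hv).2.orl d.2.2.2).add (sF.orr c.2.2.2))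
      rw [add_add_add_comm, add_self_W, zero_add] at this
      have k := (allL_iff _ _).1 c4 d hd
      rw [bnot_eq_true, Nat.beq_eq] at k
      exact k (this.code (rE.add rF))
    refine ⟨U, by rw [u1, s1, t1]; simp, fun v hv => ?_⟩
    rcases u2 v hv with hv | hv
    · exact ⟨(s2 v hv).1, c, List.mem_cons_self, E, rE, (s2 v hv).2⟩
    · obtain ⟨a, d, hd, k⟩ := t2 v hv
      exact ⟨a, d, List.mem_cons_of_mem _ hd, k⟩

theorem Md.lev_card (h : Md τ) {B : List ℕ} {b N : ℕ} {L : List Cell}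
    (c : (∀ x ∈ b :: B, x < 2 ^ 78) ∧ levO oo_act B b L = true ∧
      (L.map fun c => 2 ^ c.2.2.1.length).sum = N) :
    N * Nat.card (Fs τ (b :: B)) ≤ Nat.card (Fs τ B) := by
  have := h.finite
  obtain ⟨c1, c2, c3⟩ := c
  rw [List.forall_mem_cons] at c1
  obtain ⟨T, t1, t2⟩ := h.lev c1.2 c1.1 L c2
  rw [← c3, ← t1]
  refine le_card_rel (fun g hg => (mem_Fs_cons.1 hg).2) (fun g v => τ g *ᵥ vec b = v) ?_ T
    fun v hv => (t2 v hv).1
  rintro g j hj _ _ rfl rfl
  rw [act_mul, (mem_Fs_cons.1 hj).1]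

end H5.E2
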