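import Mathlib
import Cfsg.Agent.Lib.H5.E2Cnt

/-! Root vectors fixed by an element of odd order (helper5). -/

set_option autoImplicit false
set_option maxRecDepth 100000
set_option exponentiation.threshold 1000000

namespace H5.E2
open H15.Mdl Matrix Subgroup
open H54 (dig nth force force_eq allLt allLt_iff sel sel_eq band band_eq_true bor bor_eq_true anyL
  anyL_iff allL allL_iff)

attribute [local irreducible] oo oo_act ad RM α orc brm

variable {G : Type*} [Group G] {τ : G →* MM}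

/-- the iterated bracket used to recognise root vectors -/
noncomputable def psi (v a b c d : W) : W := br (br (br v a) (br v b)) (br (br v c) (br v d))

/-- invariants of root vectors -/
def Rt (v : W) : Prop := v ≠ 0 ∧ α v ^ 2 = 0 ∧ ∀ a b c d, psi v a b c d = 0 ∨ psi v a b c d = v

theorem sq_act (h : Md τ) (g : G) {v : W} (a : α v ^ 2 = 0) : α (τ g *ᵥ v) ^ 2 = 0 :=
  cancel_τ (τ := τ) g (by rw [← conj_pow' (h.inv g v), a, mul_zero, zero_mul])

theorem Rt.act (h : Md τ) (g : G) {v : W} (a : Rt v) : Rt (τ g *ᵥ v) := by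
  refine ⟨fun e => a.1 (act_inj (τ := τ) g (e.trans (mulVec_zero _).symm)), sq_act h g a.2.1,
    fun b c d e => ?_⟩
  rw [psi, br_act h, br_act h g v c, br_act h g v d, br_act h g v e, ← (h.inv g).br, ← (h.inv g).br,
    ← (h.inv g).br]
  refine (a.2.2 (τ g⁻¹ *ᵥ b) (τ g⁻¹ *ᵥ c) (τ g⁻¹ *ᵥ d) (τ g⁻¹ *ᵥ e)).imp (fun k => ?_) fun k => ?_ <;>
    rw [psi] at k <;> rw [k]
  exact mulVec_zero _

theorem sub_top {v : W} (a : Sub (2 ^ 77) v) : v = 0 ∨ v = vec (2 ^ 77) := by
  refine a.ind (P := fun v => v = 0 ∨ v = vec (2 ^ 77)) (.inl rfl) ?_ fun k hk e => .inr ?_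
  · rintro _ _ (rfl | rfl) (rfl | rfl)
    exacts [.inl (add_zero _), .inr (zero_add _), .inr (add_zero _), .inl (add_self_W _)]
  · rw [Nat.testBit_two_pow, decide_eq_true_eq] at e
    subst e
    exact (RV_std hk).2

theorem top_chk : sq (ad (2 ^ 77)) = 0 ∧ force (orc (ad (2 ^ 77)) (2 ^ 78 - 1)) (fun m =>
    force (brm m m) fun m => Nat.beq (brm m m) (2 ^ 77)) = true := by decide +kernel

theorem rt_top : Rt (vec (2 ^ 77)) := by
  have r : RV (vec (2 ^ 77)) (2 ^ 77) := RV_vec (by norm_num)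
  refine ⟨fun e => absurd ((r.eq_iff RV.zero).1 e) (by norm_num),
    (r.ad.sq.eq_iff RM.zero).2 top_chk.1, fun a b c d => sub_top ?_⟩
  have k := top_chk.2
  rw [force_eq, force_eq, Nat.beq_eq] at k
  have s := fun y => (sub_all y).act r.ad
  have := Sub.br (Sub.br (s a) (s b)) (Sub.br (s c) (s d))
  rwa [k] at this

/-- the polar form of `v ↦ (α v)² y` -/
noncomputable def pol (y v w : W) : W := br v (br w y) + br w (br v y)

theorem br_add_left (v w y : W) : br (v + w) y = br v y + br w y := by rw [br, map_add, add_mulVec]; rfl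
theorem br_add_right (v w y : W) : br y (v + w) = br y v + br y w := mulVec_add _ _ _

theorem pol_add (y v v' w : W) : pol y (v + v') w = pol y v w + pol y v' w := by
  simp only [pol, br_add_left, br_add_right]; abel

theorem quad_add (y v w : W) :
    br (v + w) (br (v + w) y) = br v (br v y) + br w (br w y) + pol y v w := by
  simp only [pol, br_add_left, br_add_right]; abel

/-- vector, value of the quadratic map, packed values of the polar form -/
abbrev Row : Type := ℕ × ℕ × ℕ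

/-- `D` holds the codes of the values `pol y v c` -/
def DOk (y v : W) : List Row → ℕ → Prop
  | [], _ => True
  | r :: L, D => RV (pol y v (vec r.1)) (Nat.land D 0x3fffffffffffffffffff) ∧ DOk y v L (Nat.shiftRight D 78)

theorem DOk.add {y v w : W} : ∀ {L : List Row} {D E : ℕ}, DOk y v L D → DOk y w L E →
    DOk y (v + w) L (Nat.xor D E)
  | [], _, _, _, _ => trivial
  | r :: L, D, E, a, b => by
    refine ⟨?_, ?_⟩
    · rw [pol_add, show Nat.land (Nat.xor D E) _ = _ from Nat.and_xor_distrib_right]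
      exact a.1.add b.1
    · rw [show Nat.shiftRight (Nat.xor D E) _ = _ from Nat.shiftRight_xor_distrib]
      exact a.2.add b.2

theorem DOk.zero {y : W} : ∀ L : List Row, DOk y 0 L 0
  | [] => trivial
  | r :: L => ⟨by simpa [pol, br] using RV.zero, DOk.zero L⟩

/-- check of `DOk` -/
noncomputable def dChk (cb : ℕ → ℕ → ℕ) (y c : ℕ) (L : List Row) : ℕ → Bool :=
  List.rec (motive := fun _ => ℕ → Bool) (fun _ => true) (fun r _ ih D =>
    band (Nat.beq (Nat.xor (cb c (cb r.1 y)) (cb r.1 (cb c y))) (Nat.land D 0x3fffffffffffffffffff))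
      (force (Nat.shiftRight D 78) ih)) L

theorem dChk_cons (cb : ℕ → ℕ → ℕ) (y c : ℕ) (r : Row) (L : List Row) (D : ℕ) : dChk cb y c (r :: L) D =
    band (Nat.beq (Nat.xor (cb c (cb r.1 y)) (cb r.1 (cb c y))) (Nat.land D 0x3fffffffffffffffffff))
      (dChk cb y c L (Nat.shiftRight D 78)) := rfl

theorem dOk_of {y c : ℕ} (hy : y < 2 ^ 78) (hc : c < 2 ^ 78) : ∀ (L : List Row) (D : ℕ),
    (∀ r ∈ L, r.1 < 2 ^ 78) → dChk cbr y c L D = true → DOk (vec y) (vec c) L D
  | [], _, _, _ => trivial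
  | r :: L, D, a, k => by
    rw [dChk_cons, band_eq_true, Nat.beq_eq] at k
    rw [List.forall_mem_cons] at a
    exact ⟨k.1 ▸ ((RV_vec hc).br ((RV_vec a.1).br (RV_vec hy))).add
      ((RV_vec a.1).br ((RV_vec hc).br (RV_vec hy))), dOk_of hy hc L _ a.2 k.2⟩

/-- the rows are correct -/
def RowsOk (y : W) : List Row → Prop
  | [] => True
  | r :: L => r.1 < 2 ^ 78 ∧ RV (br (vec r.1) (br (vec r.1) y)) r.2.1 ∧ DOk y (vec r.1) L r.2.2 ∧ RowsOk y L

/-- check of `RowsOk` -/
noncomputable def rChk (cb : ℕ → ℕ → ℕ) (y : ℕ) (L : List Row) : Bool :=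
  List.rec (motive := fun _ => Bool) true (fun r L ih =>
    band (Nat.beq (cb r.1 (cb r.1 y)) r.2.1) (band (dChk cb y r.1 L r.2.2) ih)) L

theorem rChk_cons (cb : ℕ → ℕ → ℕ) (y : ℕ) (r : Row) (L : List Row) : rChk cb y (r :: L) =
    band (Nat.beq (cb r.1 (cb r.1 y)) r.2.1) (band (dChk cb y r.1 L r.2.2) (rChk cb y L)) := rfl

theorem rowsOk_of {y : ℕ} (hy : y < 2 ^ 78) : ∀ L : List Row,
    (∀ r ∈ L, r.1 < 2 ^ 78) → rChk cbr y L = true → RowsOk (vec y) L
  | [], _, _ => trivial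
  | r :: L, a, k => by
    rw [rChk_cons, band_eq_true, band_eq_true, Nat.beq_eq] at k
    rw [List.forall_mem_cons] at a
    exact ⟨a.1, k.1 ▸ (RV_vec a.1).br ((RV_vec a.1).br (RV_vec hy)), dOk_of hy a.1 L _ a.2 k.2.1,
      rowsOk_of hy L a.2 k.2.2⟩

/-- enumeration of the span of the rows -/
noncomputable def en (leaf : ℕ → Bool) (L : List Row) : ℕ → ℕ → ℕ → Bool :=
  List.rec (motive := fun _ => ℕ → ℕ → ℕ → Bool) (fun v n _ => sel (Nat.beq n 0) (leaf v) true)
    (fun r _ ih v n D => force (Nat.shiftRight D 78) fun E => band (ih v n E)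
      (force (Nat.xor v r.1) fun v' =>
        force (Nat.xor (Nat.xor n r.2.1) (Nat.land D 0x3fffffffffffffffffff)) fun n' =>
          force (Nat.xor E r.2.2) fun E' => ih v' n' E')) L

theorem en_cons (leaf : ℕ → Bool) (r : Row) (L : List Row) (v n D : ℕ) :
    en leaf (r :: L) v n D = band (en leaf L v n (Nat.shiftRight D 78)) (en leaf L (Nat.xor v r.1)
      (Nat.xor (Nat.xor n r.2.1) (Nat.land D 0x3fffffffffffffffffff))
      (Nat.xor (Nat.shiftRight D 78) r.2.2)) := rfl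

theorem dec_succ {V : Type*} [AddCommGroup V] (b : ℕ → V) (n x : ℕ) : dec b (n + 1) x =
    (if x.testBit 0 then b 0 else 0) + dec (fun i => b (i + 1)) n (x >>> 1) := by
  simp only [dec, Finset.sum_range_succ', Nat.testBit_shiftRight, add_comm]

attribute [local irreducible] vec br pol dec

theorem en_spec {leaf : ℕ → Bool} {y : W} : ∀ (L : List Row) (V : W) (v n D : ℕ), RowsOk y L →
    RV V v → RV (br V (br V y)) n → DOk y V L D → en leaf L v n D = true → ∀ x w,
    w = V + dec (fun i => vec (nth (L.map Prod.fst) i)) (L.map Prod.fst).length x →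
    br w (br w y) = 0 → ∃ c, RV w c ∧ leaf c = true := by
  intro L
  induction L with
  | nil =>
    intro V v n D _ a b _ k x w e z
    obtain rfl : w = V := by simpa [dec] using e
    rw [(b.eq_iff RV.zero).1 z] at k
    exact ⟨v, a, k⟩
  | cons r L ih =>
    intro V v n D o a b d k x w e z
    rw [en_cons, band_eq_true] at k
    rw [List.map_cons, List.length_cons, dec_succ, ← add_assoc] at e
    obtain ⟨o1, o2, o3, o4⟩ := o
    obtain ⟨d1, d2⟩ := d
    by_cases hx : x.testBit 0 = true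
    · rw [if_pos hx] at e
      have := (b.add o2).add d1
      rw [← quad_add] at this
      exact ih (V + vec r.1) _ _ _ o4 (a.add (RV_vec o1)) this (d2.add o3) k.2 _ w e z
    · rw [if_neg hx, add_zero] at e
      exact ih V _ _ _ o4 a b d2 k.1 _ w e z

/-- the leaf test -/
noncomputable def leaf (T : List ℕ) (a b c d v : ℕ) : Bool :=
  bor (Nat.beq v 0) (bor (anyL (Nat.beq v) T) (force (ad v) fun A =>
    force (cbr (cbr (oo_act A a) (oo_act A b)) (cbr (oo_act A c) (oo_act A d))) fun p =>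
      bnot (bor (Nat.beq p 0) (Nat.beq p v))))

theorem mem_of_en {u : G} {q p y a b c d : ℕ} {L : List Row} {coef T : List ℕ} (ru : RG τ u q)
    (hp : Odd p) (c1 : SpChk (psum q p) (L.map Prod.fst) coef)
    (c2 : (∀ x ∈ [y, a, b, c, d], x < 2 ^ 78) ∧ (∀ r ∈ L, r.1 < 2 ^ 78) ∧ rChk cbr y L = true)
    (c3 : en (leaf T a b c d) L 0 0 0 = true) {v : W} (hv : Rt v) (fx : τ u *ᵥ v = v) :
    ∃ t ∈ T, RV v t := by
  obtain ⟨B, rB, hB⟩ := RM.psum ru hp
  obtain ⟨x, -, e⟩ := c1.exists rB v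
  simp only [List.forall_mem_cons] at c2
  obtain ⟨⟨y1, a1, b1, c1, d1, -⟩, c4, c5⟩ := c2
  obtain ⟨t, r, k⟩ := en_spec L 0 0 0 0 (rowsOk_of y1 L c4 c5) RV.zero (by simpa [br] using RV.zero)
    (DOk.zero L) c3 x v (by rw [zero_add, ← e, hB v fx]) (by
      rw [br, br, mulVec_mulVec, ← pow_two, hv.2.1, zero_mulVec])
  rw [leaf, bor_eq_true, bor_eq_true, anyL_iff, force_eq, force_eq, bnot_eq_true, bor_eq_true,
    Nat.beq_eq, Nat.beq_eq, Nat.beq_eq] at k
  rcases k with k | ⟨s, hs, k⟩ | k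
  · exact absurd ((r.eq_iff RV.zero).2 k) hv.1
  · exact ⟨s, hs, Nat.eq_of_beq_eq_true k ▸ r⟩
  · have rp := ((r.br (RV_vec a1)).br (r.br (RV_vec b1))).br ((r.br (RV_vec c1)).br (r.br (RV_vec d1)))
    exact absurd ((hv.2.2 _ _ _ _).imp (rp.eq_iff RV.zero).1 (rp.eq_iff r).1) k

open Classical in
/-- the relation between two root vectors -/
noncomputable def rel (x v : W) : ℕ := if br x v = 0 then 0 else if α (br x v) ^ 2 = 0 then 1 else 2

/-- its code -/
noncomputable def crel (x v : ℕ) : ℕ :=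
  force (cbr x v) fun b => sel (Nat.beq b 0) 0 (sel (Nat.beq (sq (ad b)) 0) 1 2)

theorem RV.rel {x v : W} {p q : ℕ} (a : RV x p) (b : RV v q) : rel x v = crel p q := by
  rw [crel, force_eq, sel_eq, sel_eq, E2.rel]
  exact if_congr (((a.br b).eq_iff RV.zero).trans Nat.beq_eq.symm.to_iff) rfl
    (if_congr (((a.br b).ad.sq.eq_iff RM.zero).trans Nat.beq_eq.symm.to_iff) rfl rfl)

theorem rel_act (h : Md τ) (g : G) (x v : W) : rel (τ g *ᵥ x) (τ g *ᵥ v) = rel x v := by
  have e1 : τ g *ᵥ br x v = 0 ↔ br x v = 0 := ⟨fun e => act_inj (τ := τ) g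
    (e.trans (mulVec_zero _).symm), fun e => by rw [e, mulVec_zero]⟩
  have e2 : α (τ g *ᵥ br x v) ^ 2 = 0 ↔ α (br x v) ^ 2 = 0 :=
    ⟨fun e => act_inv (τ := τ) g (br x v) ▸ sq_act h g⁻¹ e, sq_act h g⟩
  simp only [rel, ← (h.inv g).br, e1, e2]

/-- the vectors of `T` in the same position to `B` as `b` lie in `T'` -/
noncomputable def candChk (T B : List ℕ) (b : ℕ) (T' : List ℕ) : Bool :=
  allL (fun t => bor (anyL (Nat.beq t) T') (anyL (fun x => bnot (Nat.beq (crel x t) (crel x b))) B)) T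

theorem Md.cand (h : Md τ) {u g : G} {T B T' : List ℕ} {b q : ℕ} (ru : RG τ u q)
    (hT : ∀ v, Rt v → τ u *ᵥ v = v → ∃ t ∈ T, RV v t) (hb : Rt (vec b))
    (c : (∀ x ∈ b :: B, x < 2 ^ 78) ∧ oo_act q b = b ∧ candChk T B b T' = true)
    (hg : g ∈ centralizer {u} ⊓ Fs τ B) : ∃ t ∈ T', τ g *ᵥ vec b = vec t := by
  obtain ⟨c1, c2, c3⟩ := c
  rw [List.forall_mem_cons] at c1
  obtain ⟨t, ht, r⟩ := hT _ (hb.act h g) (by
    rw [← act_mul, ← mem_centralizer_singleton_iff.1 hg.1, act_mul, ru.fix c1.1 c2])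
  have k := (allL_iff _ _).1 c3 t ht
  rw [bor_eq_true, anyL_iff, anyL_iff] at k
  rcases k with ⟨s, hs, k⟩ | ⟨x, hx, k⟩
  · exact ⟨s, hs, Nat.eq_of_beq_eq_true k ▸ r.2⟩
  · rw [bnot_eq_true, Nat.beq_eq, ← (RV_vec (c1.2 x hx)).rel r, ← (RV_vec (c1.2 x hx)).rel (RV_vec c1.1),
      ← rel_act h g _ (vec b), hg.2 x hx] at k
    exact absurd rfl k

theorem Md.cand_card (h : Md τ) {u : G} {T B T' : List ℕ} {b q : ℕ} (ru : RG τ u q)
    (hT : ∀ v, Rt v → τ u *ᵥ v = v → ∃ t ∈ T, RV v t) (hb : Rt (vec b))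
    (c : (∀ x ∈ b :: B, x < 2 ^ 78) ∧ oo_act q b = b ∧ candChk T B b T' = true) :
    Nat.card (centralizer {u} ⊓ Fs τ B : Subgroup G) ≤
      T'.length * Nat.card (centralizer {u} ⊓ Fs τ (b :: B) : Subgroup G) := by
  have := h.finite
  refine (card_le_of_fun (fun g => τ g *ᵥ vec b) (c := fun i => vec (T'.getD i 0))
    (fun g hg k hk e => ?_) fun g hg => ?_).2
  · have m := mul_mem (inv_mem hk) hg
    exact ⟨m.1, mem_Fs_cons.2 ⟨by rw [act_mul, show τ g *ᵥ _ = _ from e, act_inv], m.2⟩⟩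
  · obtain ⟨t, ht, e⟩ := h.cand ru hT hb c hg
    obtain ⟨i, hi, rfl⟩ := List.getElem_of_mem ht
    exact ⟨i, hi, by rw [List.getD_eq_getElem _ _ hi]; exact e⟩

theorem Md.rt_word (h : Md τ) {w : List ℕ} {b : ℕ}
    (c : allL (E2.okL []) w = true ∧ wactO oo_act w (2 ^ 77) = b) : Rt (vec b) := by
  obtain ⟨v, ⟨g, -, rfl⟩, r⟩ := h.wact (B := []) (by simp) (b := 2 ^ 77) (by norm_num) w c.1
  rw [← c.2, ← r.2]
  exact rt_top.act h g

end H5.E2
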