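import Mathlib
import Cfsg.Agent.Lib.H5.E2FiveE3
import Cfsg.Agent.Lib.Pres.Alt

/-! Elements of order five in `²E₆(2)` (helper5). -/

set_option autoImplicit false
set_option maxRecDepth 100000
set_option exponentiation.threshold 1000000

namespace H5.E2
open H15.Mdl Matrix Subgroup
open H54 (dig nth force force_eq allLt allLt_iff sel sel_eq band band_eq_true bor bor_eq_true anyL
  anyL_iff allL allL_iff)

theorem exists_alt {J : Type*} [Group J] (n : ℕ) (hn : 3 ≤ n) (y : ℕ → J)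
    (h3 : ∀ i < n, y i ^ 3 = 1) (h2 : ∀ i < n, ∀ j < i, (y i * y j) ^ 2 = 1) (hne : y 0 ≠ 1) :
    ∃ φ : alternatingGroup (Fin (n + 2)) →* J, Function.Injective φ ∧
      ∀ H : Subgroup J, (∀ i < n, y i ∈ H) → φ.range ≤ H := by
  obtain ⟨φ, hφ⟩ := H40.Alt.carm_hom (ι := Fin n) (fun i => y i) (fun i => h3 i i.2)
    fun i j hij => by
      rcases lt_or_gt_of_ne (Fin.val_injective.ne hij) with h | h
      · have := h2 j j.2 i h
        calc (y i * y j) ^ 2 = y i * (y j * y i) ^ 2 * (y i)⁻¹ := by simp only [pow_two]; group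
          _ = 1 := by rw [this]; group
      · exact h2 i i.2 j h
  have hc : Fintype.card (Fin (n + 2)) = Fintype.card (Fin n ⊕ Bool) := by simp
  let e := (Fintype.equivOfCardEq hc).altCongrHom
  have := alternatingGroup.isSimpleGroup (α := Fin n ⊕ Bool) (by simp; omega)
  have hi : Function.Injective φ := by
    rw [← MonoidHom.ker_eq_bot_iff]
    refine (IsSimpleGroup.eq_bot_or_eq_top_of_normal _ inferInstance).resolve_right fun h => hne ?_
    refine (hφ ⟨0, by omega⟩).symm.trans ?_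
    rw [← MonoidHom.mem_ker, h]
    trivial
  refine ⟨φ.comp e.toMonoidHom, hi.comp e.injective, fun H hH => ?_⟩
  · refine le_trans ?_ (H40.Alt.range_le_of_xa φ H fun i => hφ i ▸ hH i i.2)
    rintro _ ⟨x, rfl⟩
    exact ⟨e x, rfl⟩

theorem prod_equiv {A B G : Type*} [Group A] [Group B] [Group G] (f : A →* G) (k : B →* G)
    (hf : Function.Injective f) (hk : Function.Injective k) (comm : ∀ a b, Commute (f a) (k b))
    (hB : center B = ⊥) (H : Subgroup G) [Finite H] (h1 : f.range ≤ H) (h2 : k.range ≤ H)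
    (hc : Nat.card H ≤ Nat.card A * Nat.card B) : Nonempty (H ≃* A × B) := by
  have hi : Function.Injective (f.noncommCoprod k comm) := by
    refine (MonoidHom.noncommCoprod_injective f k comm).2 ⟨hf, hk, disjoint_def.2 ?_⟩
    rintro _ ⟨a, rfl⟩ ⟨b, e⟩
    have : b ∈ center B := mem_center_iff.2 fun c => hk (by rw [map_mul, map_mul, e, comm a c])
    rw [hB, mem_bot] at this
    rw [← e, this, map_one]
  have hle : (f.noncommCoprod k comm).range ≤ H := by
    rintro _ ⟨x, rfl⟩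
    exact mul_mem (h1 ⟨x.1, rfl⟩) (h2 ⟨x.2, rfl⟩)
  have e := MonoidHom.ofInjective hi
  have : (f.noncommCoprod k comm).range = H :=
    eq_of_le_of_card_ge hle (by rw [← Nat.card_congr e.toEquiv, Nat.card_prod]; exact hc)
  exact ⟨(e.trans (MulEquiv.subgroupCongr this)).symm⟩

variable {G : Type*} [Group G] {τ : G →* MM}

theorem cent_conj {x y : G} (h : IsConj x y) :
    Nonempty (centralizer ({y} : Set G) ≃* centralizer ({x} : Set G)) := by
  obtain ⟨c, rfl⟩ := isConj_iff.1 h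
  have : (centralizer ({x} : Set G)).map (MulAut.conj c).toMonoidHom = centralizer {c * x * c⁻¹} := by
    ext g
    rw [mem_map_equiv, mem_centralizer_singleton_iff, mem_centralizer_singleton_iff,
      ← (MulAut.conj c).injective.eq_iff]
    simp [mul_assoc]
  exact ⟨(((MulAut.conj c).subgroupMap _).trans (MulEquiv.subgroupCongr this)).symm⟩

attribute [local irreducible] oo oo_act ad RM α orc brm vec br

/-- the word fixes `B` and permutes `a`, `b` -/
noncomputable def kChk (B : List ℕ) (a b : ℕ) (w : List ℕ) : Bool := force (wd w) fun p =>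
  band (allL (fun x => Nat.beq (oo_act p x) x) B) (band (oo.isOne (oo.mul p (wd w.reverse)))
    (bor (band (Nat.beq (oo_act p a) a) (Nat.beq (oo_act p b) b))
      (band (Nat.beq (oo_act p a) b) (Nat.beq (oo_act p b) a))))

/-- the conjugate by a word -/
noncomputable def cjc (q : ℕ) (w : List ℕ) : ℕ := oo.mul (oo.mul (wd w) q) (wd w.reverse)

theorem Md.conj_card (h : Md τ) {u : G} {q a b : ℕ} {B : List ℕ} {L : List (List ℕ)} (ru : RG τ u q)
    (c : (∀ x ∈ a :: b :: B, x < 2 ^ 78) ∧ a ≠ b ∧ (∀ w ∈ L, (∀ j ∈ w, j < 72) ∧ kChk B a b w = true) ∧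
      (L.map (cjc q)).Nodup)
    (ha : ∀ g ∈ centralizer {u} ⊓ Fs τ B, ∃ t ∈ [a, b], τ g *ᵥ vec a = vec t)
    (hb : ∀ g ∈ centralizer {u} ⊓ Fs τ B, ∃ t ∈ [a, b], τ g *ᵥ vec b = vec t) :
    L.length * Nat.card (centralizer {u} ⊓ Fs τ B : Subgroup G) ≤ 2 * Nat.card (Fs τ (b :: a :: B)) := by
  have := h.finite
  obtain ⟨c1, c2, c3, c4⟩ := c
  rw [List.forall_mem_cons, List.forall_mem_cons] at c1
  have ne : vec a ≠ vec b := fun e => c2 (((RV_vec c1.1).eq_iff (RV_vec c1.2.1)).1 e)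
  let K := finSub (fun g => g ∈ Fs τ B ∧ (τ g *ᵥ vec a = vec a ∧ τ g *ᵥ vec b = vec b ∨
      τ g *ᵥ vec a = vec b ∧ τ g *ᵥ vec b = vec a)) ⟨one_mem _, .inl (by simp)⟩ (by
    rintro g k ⟨g1, g2⟩ ⟨k1, k2⟩
    refine ⟨mul_mem g1 k1, ?_⟩
    rw [act_mul, act_mul]
    rcases k2 with ⟨k2, k3⟩ | ⟨k2, k3⟩ <;> rw [k2, k3]
    exacts [g2, g2.symm.imp And.symm And.symm])
  have k1 : Nat.card K ≤ 2 * Nat.card (Fs τ (b :: a :: B)) := by
    refine (card_le_of_fun (fun g => τ g *ᵥ vec a) (c := fun i => if i = 0 then vec a else vec b)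
      (fun g hg k hk e => ?_) fun g hg => ?_).2
    · have m : k⁻¹ * g ∈ K := mul_mem (inv_mem hk) hg
      have e1 : τ (k⁻¹ * g) *ᵥ vec a = vec a := by rw [act_mul, show τ g *ᵥ _ = _ from e, act_inv]
      exact mem_Fs_cons.2 ⟨(m.2.resolve_right fun k => ne (e1.symm.trans k.1)).2, mem_Fs_cons.2 ⟨e1, m.1⟩⟩
    · rcases hg.2 with e | e
      exacts [⟨0, by norm_num, e.1⟩, ⟨1, by norm_num, e.1⟩]
  refine le_trans ?_ k1
  rw [← List.length_map (cjc q), ← List.toFinset_card_of_nodup c4]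
  refine le_card_rel (H := K) (J := centralizer {u} ⊓ Fs τ B) (fun g hg => (⟨hg.2, ?_⟩ : _ ∧ _)) (fun g p => RG τ (g * u * g⁻¹) p) (fun g j hj p p' r r' => ?_) _
    fun p hp => ?_
  · obtain ⟨s, hs, e⟩ := ha g hg
    obtain ⟨t, ht, f⟩ := hb g hg
    have n : vec s ≠ vec t := fun k => ne (act_inj (τ := τ) g (e.trans (k.trans f.symm)))
    simp only [List.mem_cons, List.not_mem_nil, or_false] at hs ht
    rcases hs with rfl | rfl <;> rcases ht with rfl | rfl
    exacts [absurd rfl n, .inl ⟨e, f⟩, .inr ⟨e, f⟩, absurd rfl n]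
  · rw [show g * j * u * (g * j)⁻¹ = g * u * g⁻¹ by
      rw [mul_assoc g, mem_centralizer_singleton_iff.1 hj.1]; group] at r'
    exact (RM.eq_iff r r').1 rfl
  · obtain ⟨w, hw, rfl⟩ := List.mem_map.1 (List.mem_toFinset.1 hp)
    obtain ⟨d1, d2⟩ := c3 w hw
    obtain ⟨g, rg⟩ := h.word d1
    obtain ⟨k, rk⟩ := h.word (w := w.reverse) (by simpa using d1)
    rw [kChk, force_eq, band_eq_true, band_eq_true, bor_eq_true, band_eq_true, band_eq_true, allL_iff,
      Nat.beq_eq, Nat.beq_eq, Nat.beq_eq, Nat.beq_eq] at d2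
    obtain rfl : g⁻¹ = k := inv_eq_of_mul_eq_one_right ((h.snd.isOne_iff (h.snd.mul rg rk)).1 d2.2.1)
    refine ⟨g, ⟨fun x hx => rg.fix (c1.2.2 x hx) (Nat.eq_of_beq_eq_true (d2.1 x hx)), ?_⟩,
      h.snd.mul (h.snd.mul rg ru) rk⟩
    exact d2.2.2.imp (fun e => ⟨rg.mv c1.1 e.1, rg.mv c1.2.1 e.2⟩) fun e => ⟨rg.mv c1.1 e.1, rg.mv c1.2.1 e.2⟩

theorem kw5_ok : (∀ x ∈ [0x10000000000000000000, 0x200000000000000000, 0x20000, 0x40000000000000000, 0x40,
    0x20000000000000000000], x < 2 ^ 78) ∧ 0x10000000000000000000 ≠ 0x200000000000000000 ∧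
    (∀ w ∈ kw5, (∀ j ∈ w, j < 72) ∧ kChk [0x20000, 0x40000000000000000, 0x40, 0x20000000000000000000]
      0x10000000000000000000 0x200000000000000000 w = true) ∧ (kw5.map (cjc q5)).Nodup := by
  decide +kernel

theorem Md.card_cent (h : Md τ) {u : G} (ru : RG τ u q5) :
    Nat.card (centralizer ({u} : Set G)) ≤ 100800 := by
  have hT : ∀ v, Rt v → τ u *ᵥ v = v → ∃ t ∈ T5, RV v t := fun v =>
    mem_of_en ru (p := 5) (by decide) sp5 rows5_ok en5
  have a0 := h.lev_card lev0_ok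
  have a1 := h.lev_card lev1_ok
  have a2 := h.lev_card lev2_ok
  have a3 := h.lev_card lev3_ok
  have a4 := h.lev_card lev4_ok
  have a5 := h.lev_card lev5_ok
  have b0 := h.cand_card ru hT (h.rt_word rtw0) cand0
  have b1 := h.cand_card ru hT (h.rt_word rtw1) cand1
  have b2 := h.cand_card ru hT (h.rt_word rtw2) cand2
  have b3 := h.cand_card ru hT (h.rt_word rtw3) cand3
  have b4 := h.conj_card ru kw5_ok (fun g => h.cand ru hT (h.rt_word rtw4) cand4)
    (fun g => h.cand ru hT (h.rt_word rtw5) cand5)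
  rw [Fs_nil, card_top, h.card] at a0
  rw [Fs_nil, inf_top_eq, show T5.length = 105 from rfl] at b0
  rw [show kw5.length = 24 from rfl] at b4
  simp only [List.length_cons, List.length_nil] at b1 b2 b3
  omega

theorem cw5_ok : (∀ i < 6, (∀ j ∈ cw5.getD i [], j < 72) ∧ oo.isOne (oo.pow (wd (cw5.getD i [])) 3) = true ∧
    oo.comm (wd (cw5.getD i [])) q5 = true ∧
      ∀ j < i, oo.isOne (oo.pow (oo.mul (wd (cw5.getD i [])) (wd (cw5.getD j []))) 2) = true) ∧
    oo.isOne (wd (cw5.getD 0 [])) = false := by decide +kernel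

theorem Md.cent_five (h : Md τ) {u : G} (ru : RG τ u q5) :
    Nonempty (centralizer ({u} : Set G) ≃* Multiplicative (ZMod 5) × alternatingGroup (Fin 8)) := by
  have := h.finite
  have : Fact (Nat.Prime 5) := ⟨by norm_num⟩
  have ou := h.snd.orderOf_eq ru uv5.1 (by norm_num)
  choose y hy using fun i : ℕ => (show ∃ g, i < 6 → RG τ g (wd (cw5.getD i [])) from by
    by_cases hi : i < 6
    · exact (h.word (cw5_ok.1 i hi).1).imp fun _ r _ => r
    · exact ⟨1, fun k => absurd k hi⟩)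
  obtain ⟨φ, p1, p2⟩ := exists_alt 6 (by norm_num) y
    (fun i hi => (h.snd.isOne_iff (h.snd.pow (hy i hi) 3)).1 (cw5_ok.1 i hi).2.1)
    (fun i hi j hj => (h.snd.isOne_iff (h.snd.pow (h.snd.mul (hy i hi) (hy j (hj.trans hi))) 2)).1
      ((cw5_ok.1 i hi).2.2.2 j hj))
    (fun e => Bool.noConfusion (cw5_ok.2.symm.trans ((h.snd.isOne_iff (hy 0 (by norm_num))).2 e)))
  have p3 := p2 (centralizer {u}) fun i hi => mem_centralizer_singleton_iff.2
    ((h.snd.comm_iff (hy i hi) ru).1 (cw5_ok.1 i hi).2.2.1)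
  let e : Multiplicative (ZMod 5) ≃* zpowers u :=
    mulEquivOfPrimeCardEq (p := 5) (by simp) (by rw [Nat.card_zpowers, ou])
  have := alternatingGroup.isSimpleGroup (α := Fin 8) (by simp)
  refine prod_equiv ((zpowers u).subtype.comp e.toMonoidHom) φ (Subtype.val_injective.comp e.injective) p1
    (fun a b => ?_) ?_ _ ?_ p3 ((h.card_cent ru).trans_eq ?_)
  · obtain ⟨k, hk⟩ := (e a).2
    exact (show u ^ k = ((zpowers u).subtype.comp e.toMonoidHom) a from hk) ▸
      (show Commute (φ b) u from mem_centralizer_singleton_iff.1 (p3 ⟨b, rfl⟩)).symm.zpow_left k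
  · exact alternatingGroup.center_eq_bot (by simp)
  · rintro _ ⟨a, rfl⟩
    exact zpowers_le.2 (mem_centralizer_singleton_iff.2 rfl) (e a).2
  · rw [nat_card_alternatingGroup]; simp [Nat.factorial]

theorem cj5_ok : ∀ i < 5, ∀ j < 5, i = 0 ∧ j = 0 ∨ (∀ k ∈ cj5.getD (5 * i + j) [], k < 72) ∧
    oo.cj (wd (cj5.getD (5 * i + j) [])) q5 (pw2 q5 v5 i j) = true := by decide +kernel

theorem Md.conj_five (h : Md τ) {u x : G} (ru : RG τ u q5) (hx : orderOf x = 5) : IsConj u x := by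
  have := h.finite
  have hp : Nat.Prime 5 := by norm_num
  obtain ⟨b, rb⟩ := h.ex v5_ok
  obtain ⟨c1, c2, c3, c4, c5, c6⟩ := uv5
  have oa := h.snd.orderOf_eq ru c1 (by norm_num)
  have ob := h.snd.orderOf_eq rb c2 (by norm_num)
  have hab : Commute u b := (h.snd.comm_iff ru rb).1 c3
  have r := RV_vec c4
  have hn : b ∉ zpowers u := fun k => c6 (((RV.act rb r).eq_iff r).1 (fx_zpowers (ru.fix c4 c5) b k))
  obtain ⟨c, hc⟩ := (exists_map_le_two hp hab oa (ob ▸ pow_orderOf_eq_one b) hn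
    (by rw [h.card]; norm_num)).2 (zpowers x)
    (IsPGroup.of_card (n := 1) (by rw [Nat.card_zpowers, hx, pow_one]))
  obtain ⟨i, hi, j, hj, e⟩ := mem_two (by norm_num) (oa ▸ pow_orderOf_eq_one u : u ^ 5 = 1)
    (ob ▸ pow_orderOf_eq_one b : b ^ 5 = 1) (hc ⟨x, mem_zpowers x, rfl⟩)
  replace e : c * x * c⁻¹ = u ^ i * b ^ j := e
  rcases cj5_ok i hi j hj with ⟨rfl, rfl⟩ | ⟨d1, d2⟩
  · obtain rfl : x = 1 := by simpa using e
    simp at hx
  · obtain ⟨g, rg⟩ := h.word d1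
    have := (h.snd.cj_iff rg ru (RG_pw2 h ru rb i j)).1 d2
    exact isConj_iff.2 ⟨c⁻¹ * g, by rw [mul_assoc c⁻¹, this, ← e]; group⟩

end H5.E2
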