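import Mathlib
import Cfsg.Agent.Lib.H5.E2FiveD

/-! Elements of order five in `²E₆(2)`: enumeration of the fixed vectors (helper5). -/

set_option autoImplicit false
set_option maxRecDepth 100000
set_option exponentiation.threshold 1000000

namespace H5.E2
open H15.Mdl Subgroup
open H54 (nth force allLt allL)

theorem en5_0 : en lf5 rowsT 0x0 0x0 0x0 = true := by decide +kernel
theorem en5_1 : en lf5 rowsT 0x90000000008 0xeb144e89b64b12c0c80 0x9c6300480000000000b00f310001100000000000000000000000000000c8008990080000480018020009000510004000200140003000338060100000c000040400c0200000000000000000000000000000260809011534f0000000000dc041011000000000000000000000000000000000000000000000000000000000000 = true := by decide +kernel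
theorem en5_2 : en lf5 rowsT 0x4 0x2489080928112ac8400 0x0 = true := by decide +kernel
theorem en5_3 : en lf5 rowsT 0x9000000000c 0xcf9d46809e5a3808880 0x9c6300480000000000b00f310001100000000000000000000000000000c8008990080000480018020009000510004000200140003000338060100000c000040400c0200000000000000000000000000000260809011534f0000000000dc041011000000000000000000000000000000000000000000000000000000000000 = true := by decide +kernel

end H5.E2
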