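import Mathlib
import Cfsg.Agent.Lib.H5.E2FiveD

/-! Elements of order five in `²E₆(2)`: enumeration of the fixed vectors (helper5). -/

set_option autoImplicit false
set_option maxRecDepth 100000
set_option exponentiation.threshold 1000000

namespace H5.E2
open H15.Mdl Subgroup
open H54 (nth force allLt allL)

theorem en5_4 : en lf5 rowsT 0x2 0x2c00c08047520c8080 0xe9c04a400000000000009c6300480000000000b00f310001100000000001034008140041000000000000000000000000000000000000000000000000000000000000000000000000000000000000000005c0004000614234000000260809011534f0000000000dc04101100000000000003f408640000000000000000000000000000000000000000 = true := by decide +kernel
theorem en5_5 : en lf5 rowsT 0x9000000000a 0xe9d44281b23e3208c00 0xe9c04a400000000000000000000000000000000000000000000000000001034008140041000000c8008990080000480018020009000510004000200140003000338060100000c000040400c02000000005c0004000614234000000000000000000000000000000000000000000000000003f408640000000000000000000000000000000000000000 = true := by decide +kernel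
theorem en5_6 : en lf5 rowsT 0x6 0x264904012c640a00480 0xe9c04a400000000000009c6300480000000000b00f310001100000000001034008140041000000000000000000000000000000000000000000000000000000000000000000000000000000000000000005c0004000614234000000260809011534f0000000000dc04101100000000000003f408640000000000000000000000000000000000000000 = true := by decide +kernel
theorem en5_7 : en lf5 rowsT 0x9000000000e 0xcd5d4a889a2f18c0800 0xe9c04a400000000000000000000000000000000000000000000000000001034008140041000000c8008990080000480018020009000510004000200140003000338060100000c000040400c02000000005c0004000614234000000000000000000000000000000000000000000000000003f408640000000000000000000000000000000000000000 = true := by decide +kernel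

end H5.E2
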