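import Mathlib
import Cfsg.Agent.Lib.ModRep.Sg
import Cfsg.Agent.Lib.Cusp.Lift

/-!
The simple modules of `SL₂(F)`, `F` finite, over an algebraically closed field of the same
characteristic: eigenvalues of semisimple elements.
-/

set_option autoImplicit false
set_option linter.unusedSectionVars false

namespace H5.L2

open Matrix Polynomial Module

section Alg

variable {k A : Type*} [Field k] [CommRing A] [Algebra k A]

/-- exponents with non-zero binomial coefficient -/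
noncomputable def Am (k : Type*) [Field k] (m : ℕ) : Finset ℕ := by
  classical exact (Finset.range (m + 1)).filter fun a => (m.choose a : k) ≠ 0

lemma mem_Am {m a : ℕ} : a ∈ Am k m ↔ a ≤ m ∧ (m.choose a : k) ≠ 0 := by
  simp [Am]

lemma binom (x y : A) (γ δ : k) (m : ℕ) : (γ • x + δ • y) ^ m =
    ∑ a ∈ Finset.range (m + 1), (γ ^ (m - a) * δ ^ a * (m.choose a : k)) • (x ^ (m - a) * y ^ a) := by
  rw [add_comm, add_pow]
  refine Finset.sum_congr rfl fun a _ => ?_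
  simp only [Algebra.smul_def, map_mul, map_pow, map_natCast, mul_pow]
  ring

lemma pow_mem {N : Submodule k A} {x y : A} {m : ℕ} (h : ∀ a ∈ Am k m, x ^ (m - a) * y ^ a ∈ N) (γ δ : k) :
    (γ • x + δ • y) ^ m ∈ N := by
  rw [binom]
  refine N.sum_mem fun a ha => ?_
  by_cases h0 : (m.choose a : k) = 0
  · rw [h0, mul_zero, zero_smul]; exact N.zero_mem
  · exact N.smul_mem _ (h a (mem_Am.2 ⟨Nat.lt_succ_iff.1 (Finset.mem_range.1 ha), h0⟩))

variable {F : Type*} [Field F] [Fintype F] (ι : F →+* k)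

lemma coeff_eq_zero {m : ℕ} (hm : m < Fintype.card F) {c : ℕ → k}
    (h : ∀ t : F, ∑ a ∈ Finset.range (m + 1), c a * ι t ^ a = 0) {a : ℕ} (ha : a ≤ m) : c a = 0 := by
  have h1 : (∑ a ∈ Finset.range (m + 1), C (c a) * X ^ a : k[X]) = 0 := by
    refine Polynomial.eq_zero_of_natDegree_lt_card_of_eval_eq_zero _ ι.injective (fun t => ?_) (lt_of_le_of_lt ?_ hm)
    · simpa [Polynomial.eval_finsetSum] using h t
    · exact Polynomial.natDegree_sum_le_of_forall_le _ _ fun a ha =>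
        (natDegree_C_mul_X_pow_le _ _).trans (Nat.lt_succ_iff.1 (Finset.mem_range.1 ha))
  have h2 := congrArg (fun P : k[X] => P.coeff a) h1
  simp only [finsetSum_coeff, coeff_C_mul, coeff_X_pow, coeff_zero, mul_ite, mul_one, mul_zero] at h2
  rwa [Finset.sum_ite_eq, if_pos (Finset.mem_range.2 (Nat.lt_succ_of_le ha))] at h2

lemma mon_mem {N : Submodule k A} {x y : A} {m : ℕ} (hm : m < Fintype.card F)
    (h : ∀ t : F, ((1 : k) • x + ι t • y) ^ m ∈ N) {a : ℕ} (ha : a ∈ Am k m) : x ^ (m - a) * y ^ a ∈ N := by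
  rw [← Subspace.forall_mem_dualAnnihilator_apply_eq_zero_iff]
  intro φ hφ
  have h1 := coeff_eq_zero ι hm (c := fun a => (m.choose a : k) * φ (x ^ (m - a) * y ^ a)) (fun t => by
    have h2 := (Submodule.mem_dualAnnihilator φ).1 hφ _ (h t)
    rw [binom, map_sum] at h2
    rw [← h2]
    refine Finset.sum_congr rfl fun a _ => ?_
    rw [map_smul, smul_eq_mul]; ring) (mem_Am.1 ha).1
  exact (mul_eq_zero.1 h1).resolve_left (mem_Am.1 ha).2

end Alg

lemma charpoly_of_basis {k V α : Type*} [Field k] [AddCommGroup V] [Module k V] [FiniteDimensional k V]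
    [Fintype α] [DecidableEq α] (b : Basis α k V) {f : Module.End k V} {μ : α → k} (h : ∀ i, f (b i) = μ i • b i) :
    f.charpoly = ∏ i, (X - C (μ i)) := by
  rw [← LinearMap.charpoly_toMatrix f b, ← Matrix.charpoly_diagonal]
  congr 1
  ext i j
  rw [LinearMap.toMatrix_apply, h, map_smul, Basis.repr_self, Finsupp.smul_apply, Finsupp.single_apply, diagonal_apply]
  by_cases e : i = j
  · simp [e]
  · simp [e, Ne.symm e]

section SL

/-- the group `SL₂(F)` -/
abbrev S2 (F : Type*) [Field F] := Matrix.SpecialLinearGroup (Fin 2) F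

variable {F : Type*} [Field F]

/-- upper unitriangular -/
def uu (t : F) : (S2 F) := ⟨!![1, t; 0, 1], by simp [Matrix.det_fin_two]⟩
/-- lower unitriangular -/
def ll (t : F) : (S2 F) := ⟨!![1, 0; t, 1], by simp [Matrix.det_fin_two]⟩
/-- diagonal -/
def dd (c : Fˣ) : (S2 F) := ⟨!![((c⁻¹ : Fˣ) : F), 0; 0, c], by simp [Matrix.det_fin_two]⟩
/-- companion matrix -/
def cc (t : F) : (S2 F) := ⟨!![0, -1; 1, t], by simp [Matrix.det_fin_two]⟩

/-- matrix entries -/
def en (g : (S2 F)) (i j : Fin 2) : F := g.1 i j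

lemma ext2 {g h : (S2 F)} (h00 : en g 0 0 = en h 0 0) (h01 : en g 0 1 = en h 0 1) (h10 : en g 1 0 = en h 1 0)
    (h11 : en g 1 1 = en h 1 1) : g = h := by
  ext i j; fin_cases i <;> fin_cases j <;> assumption

@[simp] lemma en_mul (g h : (S2 F)) (i j : Fin 2) : en (g * h) i j = en g i 0 * en h 0 j + en g i 1 * en h 1 j :=
  (Matrix.mul_apply (M := g.1) (N := h.1)).trans (Fin.sum_univ_two _)

lemma det2 (g : (S2 F)) : en g 0 0 * en g 1 1 - en g 0 1 * en g 1 0 = 1 := (Matrix.det_fin_two g.1).symm.trans g.2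

@[simp] lemma en_one00 : en (1 : (S2 F)) 0 0 = 1 := rfl
@[simp] lemma en_one01 : en (1 : (S2 F)) 0 1 = 0 := rfl
@[simp] lemma en_one10 : en (1 : (S2 F)) 1 0 = 0 := rfl
@[simp] lemma en_one11 : en (1 : (S2 F)) 1 1 = 1 := rfl
@[simp] lemma en_neg (g : (S2 F)) (i j : Fin 2) : en (-g) i j = -en g i j := rfl
@[simp] lemma en_uu00 (t : F) : en (uu t) 0 0 = 1 := rfl
@[simp] lemma en_uu01 (t : F) : en (uu t) 0 1 = t := rfl
@[simp] lemma en_uu10 (t : F) : en (uu t) 1 0 = 0 := rfl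
@[simp] lemma en_uu11 (t : F) : en (uu t) 1 1 = 1 := rfl
@[simp] lemma en_ll00 (t : F) : en (ll t) 0 0 = 1 := rfl
@[simp] lemma en_ll01 (t : F) : en (ll t) 0 1 = 0 := rfl
@[simp] lemma en_ll10 (t : F) : en (ll t) 1 0 = t := rfl
@[simp] lemma en_ll11 (t : F) : en (ll t) 1 1 = 1 := rfl
@[simp] lemma en_cc00 (t : F) : en (cc t) 0 0 = 0 := rfl
@[simp] lemma en_cc01 (t : F) : en (cc t) 0 1 = -1 := rfl
@[simp] lemma en_cc10 (t : F) : en (cc t) 1 0 = 1 := rfl
@[simp] lemma en_cc11 (t : F) : en (cc t) 1 1 = t := rfl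
@[simp] lemma en_dd00 (t : Fˣ) : en (dd t) 0 0 = (t : F)⁻¹ := Units.val_inv_eq_inv_val t
@[simp] lemma en_dd01 (t : Fˣ) : en (dd t) 0 1 = 0 := rfl
@[simp] lemma en_dd10 (t : Fˣ) : en (dd t) 1 0 = 0 := rfl
@[simp] lemma en_dd11 (t : Fˣ) : en (dd t) 1 1 = t := rfl

lemma uu_add (s t : F) : uu (s + t) = uu s * uu t := by
  apply ext2 <;> simp [add_comm]

lemma uu_zero : uu (0 : F) = 1 := by apply ext2 <;> simp

lemma uu_nsmul (n : ℕ) (t : F) : uu (n • t) = uu t ^ n := by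
  induction n with
  | zero => simp [uu_zero]
  | succ n ih => rw [succ_nsmul, uu_add, ih, pow_succ]

lemma dd_mul (a b : Fˣ) : dd (a * b) = dd a * dd b := by
  apply ext2 <;> simp [mul_comm]

lemma dd_one : dd (1 : Fˣ) = 1 := by apply ext2 <;> simp

lemma dd_pow (a : Fˣ) (n : ℕ) : dd (a ^ n) = dd a ^ n := by
  induction n with
  | zero => simp [dd_one]
  | succ n ih => rw [pow_succ, dd_mul, ih, pow_succ]

lemma uu_dd (t : F) (a : Fˣ) : uu t * dd a = dd a * uu (a * a * t) := by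
  apply ext2 <;> simp
  field_simp

lemma eq_uu_dd {b : (S2 F)} (hb : en b 1 0 = 0) : ∃ (t : F) (a : Fˣ), (a : F) = en b 1 1 ∧ b = uu t * dd a := by
  have h := det2 b
  rw [hb, mul_zero, sub_zero] at h
  have h1 : en b 1 1 ≠ 0 := right_ne_zero_of_mul_eq_one h
  refine ⟨en b 0 1 / en b 1 1, Units.mk0 _ h1, rfl, ?_⟩
  apply ext2 <;> simp [hb, h1]
  exact eq_inv_of_mul_eq_one_left h

variable {k V : Type*} [Field k] [IsAlgClosed k] [AddCommGroup V] [Module k V] [FiniteDimensional k V]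
  (p : ℕ) [Fact p.Prime] [CharP F p] [CharP k p]

include p in
lemma exists_U_fixed [Nontrivial V] (π : Representation k (S2 F) V) : ∃ v, v ≠ 0 ∧ ∀ t, π (uu t) v = v := by
  obtain ⟨v, -, h0, h⟩ := H64.MR.exists_common_eigen (S := Set.range fun t => π (uu t)) (W := ⊤) (by
    rintro _ ⟨s, rfl⟩ _ ⟨t, rfl⟩
    change π _ * π _ = π _ * π _
    rw [← map_mul, ← map_mul, ← uu_add, ← uu_add, add_comm]) top_ne_bot fun _ _ _ _ => trivial
  refine ⟨v, h0, fun t => ?_⟩
  obtain ⟨c, hc⟩ := h _ ⟨t, rfl⟩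
  have h1 : ∀ n : ℕ, π (uu t ^ n) v = c ^ n • v := fun n => by
    induction n with
    | zero => simp
    | succ n ih => rw [pow_succ, H64.MR.rmul, hc, map_smul, ih, smul_smul, pow_succ']
  have h2 := h1 p
  rw [← uu_nsmul, nsmul_eq_mul, CharP.cast_eq_zero, zero_mul, uu_zero, map_one, Module.End.one_apply] at h2
  have h3 : c ^ p = 1 := smul_left_injective k h0 (by simpa using h2.symm)
  have h4 : c = 1 := frobenius_inj k p (by rw [frobenius_def, h3, map_one])
  rw [hc, h4, one_smul]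

include p in
lemma exists_B_eigen [Nontrivial V] (π : Representation k (S2 F) V) :
    ∃ v, v ≠ 0 ∧ (∀ t, π (uu t) v = v) ∧ ∀ a, ∃ c : k, π (dd a) v = c • v := by
  obtain ⟨v, h0, hv⟩ := exists_U_fixed p π
  let W : Submodule k V :=
    { carrier := {v | ∀ t, π (uu t) v = v}
      add_mem' := fun ha hb t => by rw [map_add, ha t, hb t]
      zero_mem' := fun t => map_zero _
      smul_mem' := fun c x hx t => by rw [map_smul, hx t] }
  obtain ⟨w, hw, h1, h⟩ := H64.MR.exists_common_eigen (S := Set.range fun a => π (dd a)) (W := W) (by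
    rintro _ ⟨s, rfl⟩ _ ⟨t, rfl⟩
    change π _ * π _ = π _ * π _
    rw [← map_mul, ← map_mul, ← dd_mul, ← dd_mul, mul_comm]) ((Submodule.ne_bot_iff _).2 ⟨v, hv, h0⟩) (by
    rintro _ ⟨a, rfl⟩ x hx t
    rw [← H64.MR.rmul, uu_dd, H64.MR.rmul, hx])
  exact ⟨w, h1, hw, fun a => h _ ⟨a, rfl⟩⟩

variable [Fintype F] (ι : F →+* k)

include p in
lemma exists_functional [Nontrivial V] (ρ : Representation k (S2 F) V) : ∃ φ : Module.Dual k V, φ ≠ 0 ∧
    ∃ m, 0 < m ∧ m < Fintype.card F ∧ ∀ b : (S2 F), en b 1 0 = 0 → ∀ s, φ (ρ b s) = ι (en b 1 1) ^ m * φ s := by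
  classical
  obtain ⟨φ, h0, h1, h2⟩ := exists_B_eigen p ρ.dual
  have h3 : ∀ t s, φ (ρ (uu t) s) = φ s := fun t s => by
    have := LinearMap.congr_fun (h1 (-t)) s
    rwa [Representation.dual_apply, show (uu (-t))⁻¹ = uu t from
      inv_eq_of_mul_eq_one_right (by rw [← uu_add, neg_add_cancel, uu_zero])] at this
  obtain ⟨ω, hω⟩ := IsCyclic.exists_monoid_generator (α := Fˣ)
  obtain ⟨c, hc⟩ := h2 ω⁻¹
  have h4 : ∀ s, φ (ρ (dd ω) s) = c * φ s := fun s => by
    have := LinearMap.congr_fun hc s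
    rwa [Representation.dual_apply, show (dd ω⁻¹)⁻¹ = dd ω from
      inv_eq_of_mul_eq_one_right (by rw [← dd_mul, inv_mul_cancel, dd_one])] at this
  have h5 : ∀ (n : ℕ) s, φ (ρ (dd (ω ^ n)) s) = c ^ n * φ s := fun n => by
    induction n with
    | zero => simp [dd_one]
    | succ n ih => intro s; rw [pow_succ, dd_mul, H64.MR.rmul, ih, h4, pow_succ, mul_assoc]
  have hq : 1 < Fintype.card F := Fintype.one_lt_card
  have ho : orderOf ω = Fintype.card F - 1 := by
    rw [orderOf_eq_card_of_forall_mem_powers hω, Nat.card_eq_fintype_card, Fintype.card_units]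
  have hp : IsPrimitiveRoot (ι ω) (Fintype.card F - 1) := by
    refine IsPrimitiveRoot.map_of_injective ?_ ι.injective
    rw [IsPrimitiveRoot.coe_units_iff, ← ho]; exact IsPrimitiveRoot.orderOf ω
  obtain ⟨s0, hs0⟩ : ∃ s, φ s ≠ 0 := by
    by_contra h; push Not at h; exact h0 (LinearMap.ext h)
  have h6 : c ^ (Fintype.card F - 1) = 1 := by
    have := h5 (Fintype.card F - 1) s0
    rw [← ho, pow_orderOf_eq_one, dd_one, map_one, Module.End.one_apply, ho] at this
    exact (mul_eq_right₀ hs0).1 this.symm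
  have : NeZero (Fintype.card F - 1) := ⟨by omega⟩
  obtain ⟨m, hm, hm'⟩ := hp.eq_pow_of_pow_eq_one h6
  obtain ⟨m, h7, h8, h9⟩ : ∃ m, 0 < m ∧ m < Fintype.card F ∧ ι ω ^ m = c := by
    rcases Nat.eq_zero_or_pos m with rfl | h
    · exact ⟨Fintype.card F - 1, by omega, by omega, by rw [hp.pow_eq_one, ← hm', pow_zero]⟩
    · exact ⟨m, h, by omega, hm'⟩
  refine ⟨φ, h0, m, h7, h8, fun b hb s => ?_⟩
  obtain ⟨t, a, ha, e⟩ := eq_uu_dd hb
  obtain ⟨n, rfl⟩ := hω a
  rw [← ha]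
  nth_rw 1 [e]
  rw [H64.MR.rmul, h3, h5, ← h9, Units.val_pow_eq_pow_val, map_pow, ← pow_mul, ← pow_mul, mul_comm m]

/-- linear forms in the bottom row -/
def lf (α β : k) : (S2 F) → k := fun h => ι (en h 1 0) * α + ι (en h 1 1) * β

lemma lf_mul (α β : k) (h g : (S2 F)) : lf ι α β (h * g) =
    lf ι (ι (en g 0 0) * α + ι (en g 0 1) * β) (ι (en g 1 0) * α + ι (en g 1 1) * β) h := by
  simp only [lf, en_mul, map_add, map_mul]; ring

lemma lf_add (γ δ α β α' β' : k) :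
    γ • lf ι α β + δ • lf ι α' β' = lf ι (γ * α + δ * α') (γ * β + δ * β') := by
  funext h; simp only [lf, Pi.add_apply, Pi.smul_apply, smul_eq_mul]; ring

/-- matrix coefficients -/
def Phi (ρ : Representation k (S2 F) V) (φ : Module.Dual k V) : V →ₗ[k] ((S2 F) → k) where
  toFun s h := φ (ρ h s)
  map_add' a b := by funext h; simp
  map_smul' a b := by funext h; simp

lemma Phi_apply (ρ : Representation k (S2 F) V) (φ : Module.Dual k V) (s : V) (h : (S2 F)) : Phi ρ φ s h = φ (ρ h s) := rfl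

lemma Phi_mul (ρ : Representation k (S2 F) V) (φ : Module.Dual k V) (s : V) (g h : (S2 F)) :
    Phi ρ φ (ρ g s) h = Phi ρ φ s (h * g) := by rw [Phi_apply, Phi_apply, H64.MR.rmul]

variable {ρ : Representation k (S2 F) V} (hs : ∀ W : Submodule k V, W ≠ ⊥ → (∀ g, W ≤ W.comap (ρ g)) → W = ⊤)

include hs in
lemma Phi_inj {φ : Module.Dual k V} (h0 : φ ≠ 0) : Function.Injective (Phi ρ φ) := by
  rw [← LinearMap.ker_eq_bot]
  by_contra h
  have h1 := hs _ h fun g s hs => by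
    rw [Submodule.mem_comap, LinearMap.mem_ker] at *
    funext h; rw [Phi_mul, hs]; rfl
  refine h0 (LinearMap.ext fun s => ?_)
  have h2 : Phi ρ φ s = 0 := LinearMap.mem_ker.1 (h1 ▸ Submodule.mem_top : s ∈ LinearMap.ker (Phi ρ φ))
  simpa [Phi_apply] using congrFun h2 1

lemma Phi_fixed {φ : Module.Dual k V} {m : ℕ}
    (hB : ∀ b : (S2 F), en b 1 0 = 0 → ∀ s, φ (ρ b s) = ι (en b 1 1) ^ m * φ s) {s : V} (hU : ∀ t, ρ (uu t) s = s)
    {h : (S2 F)} (h0 : en h 1 0 ≠ 0) : Phi ρ φ s h = ι (en h 1 0) ^ m * φ (ρ (cc 0) s) := by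
  have e : h = h * uu (-(en h 1 1 / en h 1 0)) * -cc 0 * (cc 0 * uu (en h 1 1 / en h 1 0)) := by
    have h1 : -cc (0 : F) * cc 0 = 1 := by apply ext2 <;> simp
    rw [mul_assoc, ← mul_assoc (-cc 0), h1, one_mul, mul_assoc, ← uu_add, neg_add_cancel, uu_zero, mul_one]
  rw [Phi_apply]
  nth_rw 1 [e]
  rw [H64.MR.rmul, hB _ (by simp; field_simp; ring), H64.MR.rmul, hU]
  simp

include p hs in
lemma exists_top [Nontrivial V] : ∃ φ : Module.Dual k V, φ ≠ 0 ∧ ∃ m, m < Fintype.card F ∧ ∃ s,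
    Phi ρ φ s = lf ι 1 0 ^ m := by
  classical
  obtain ⟨φ, h0, m, hm0, hm, hB⟩ := exists_functional p ι ρ
  obtain ⟨s, hs0, hU⟩ := exists_U_fixed p ρ
  refine ⟨φ, h0, ?_⟩
  have key : ∀ s, (∀ t, ρ (uu t) s = s) → φ s = 0 → φ (ρ (cc 0) s) ≠ 0 → ∃ s, Phi ρ φ s = lf ι 1 0 ^ m :=
    fun s hU h1 h2 => ⟨(φ (ρ (cc 0) s))⁻¹ • s, funext fun h => by
      rw [map_smul, Pi.smul_apply, smul_eq_mul]
      by_cases h3 : en h 1 0 = 0
      · rw [Phi_apply, hB _ h3, h1]; simp [lf, h3, hm0.ne']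
      · rw [Phi_fixed ι hB hU h3]; simp [lf]; field_simp⟩
  by_cases h1 : φ s = 0
  · refine ⟨m, hm, key s hU h1 fun h2 => hs0 (Phi_inj hs h0 (funext fun h => ?_))⟩
    by_cases h3 : en h 1 0 = 0
    · rw [Phi_apply, hB _ h3, h1]; simp
    · rw [Phi_fixed ι hB hU h3, h2]; simp
  have hq : (Fintype.card F : k) = 0 := by rw [← map_natCast ι, FiniteField.cast_card_eq_zero, map_zero]
  by_cases h2 : φ (ρ (cc 0) (∑ t, ρ (uu t) (ρ (cc 0) s))) = 0
  swap
  · refine ⟨m, hm, key _ (fun r => ?_) ?_ h2⟩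
    · rw [map_sum]
      exact Fintype.sum_equiv (Equiv.addLeft r) _ _ fun t => by rw [← H64.MR.rmul, ← uu_add]; rfl
    · rw [map_sum, Finset.sum_congr rfl fun t _ => hB (uu t) rfl _]
      simp [hq]
  have h3 : ∀ t, φ (ρ (cc 0) (ρ (uu t) (ρ (cc 0) s))) =
      (if t = 0 then ι (-1) ^ m * φ s else 0) + ι (t ^ m) * φ (ρ (cc 0) s) := fun t => by
    rw [← H64.MR.rmul, ← H64.MR.rmul]
    split_ifs with h
    · rw [hB _ (by simp [h])]; simp [h, hm0.ne']
    · rw [← Phi_apply, Phi_fixed ι hB hU (by simpa using h)]; simp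
  rw [map_sum, map_sum, Finset.sum_congr rfl fun t _ => h3 t, Finset.sum_add_distrib, Finset.sum_ite_eq',
    if_pos (Finset.mem_univ _), ← Finset.sum_mul, ← map_sum] at h2
  have h4 : m = Fintype.card F - 1 := by
    by_contra h
    rw [FiniteField.sum_pow_lt_card_sub_one F m (by omega), map_zero, zero_mul, add_zero] at h2
    exact mul_ne_zero (pow_ne_zero _ (by simp)) h1 h2
  have h5 : ∀ t : F, t ≠ 0 → ι t ^ m = 1 := fun t ht => by
    rw [← map_pow, h4, FiniteField.pow_card_sub_one_eq_one t ht, map_one]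
  have h6 : ι (∑ t : F, t ^ m) = -1 := by
    have h7 : ∑ t : F, (ι (t ^ m) + if t = 0 then 1 else 0) = ∑ _t : F, (1 : k) :=
      Finset.sum_congr rfl fun t _ => by
        split_ifs with h
        · simp [h, hm0.ne']
        · rw [map_pow, h5 t h, add_zero]
    rw [Finset.sum_add_distrib, Finset.sum_ite_eq', if_pos (Finset.mem_univ _), ← map_sum] at h7
    simp only [Finset.sum_const, Finset.card_univ, nsmul_eq_mul, hq, zero_mul] at h7
    exact eq_neg_of_add_eq_zero_left h7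
  rw [h6, h5 _ (by simp)] at h2
  refine ⟨0, by omega, (φ s)⁻¹ • s, funext fun h => ?_⟩
  rw [map_smul, Pi.smul_apply, smul_eq_mul, pow_zero, Pi.one_apply]
  by_cases h7 : en h 1 0 = 0
  · have h8 := det2 h
    rw [h7, mul_zero, sub_zero] at h8
    rw [Phi_apply, hB _ h7, h5 _ (right_ne_zero_of_mul_eq_one h8), one_mul, inv_mul_cancel₀ h1]
  · rw [Phi_fixed ι hB hU h7, h5 _ h7, show φ (ρ (cc 0) s) = φ s by linear_combination -h2, one_mul,
      inv_mul_cancel₀ h1]

/-- eigenvectors -/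
def Eig (g : S2 F) (α β θ : k) : Prop := ∀ h, lf ι α β (h * g) = θ * lf ι α β h

lemma Eig.pow {g : S2 F} {α β θ : k} (h : Eig ι g α β θ) (n : ℕ) : Eig ι (g ^ n) α β (θ ^ n) := by
  induction n with
  | zero => intro x; simp
  | succ n ih => intro x; rw [pow_succ, ← mul_assoc, h, ih, pow_succ', mul_assoc]

lemma eig_cc {τ : F} {θ : k} (h : θ ^ 2 - ι τ * θ + 1 = 0) : Eig ι (cc τ) 1 (-θ) θ := fun x => by
  rw [lf_mul]
  simp only [lf, en_cc00, en_cc01, en_cc10, en_cc11, map_zero, map_neg, map_one]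
  linear_combination ι (en x 1 1) * h

include p hs in
theorem simple_charpoly [Nontrivial V] (hneg : ρ (-1) = 1) (h2 : (-1 : k) ≠ 1) : ∃ m, m < Fintype.card F ∧ Even m ∧
    ∀ (g : S2 F) (α β α' β' θ θ' : k), α * β' - α' * β ≠ 0 → Eig ι g α β θ → Eig ι g α' β' θ' →
      (ρ g).charpoly = ∏ a ∈ Am k m, (X - C (θ ^ (m - a) * θ' ^ a)) := by
  classical
  obtain ⟨φ, h0, m, hm, s0, hs0⟩ := exists_top p ι hs
  have hi := Phi_inj hs h0
  have h1 : ∀ γ δ, lf ι γ δ ^ m ∈ LinearMap.range (Phi ρ φ) := fun γ δ => by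
    have := pow_mem (x := lf ι 1 0) (y := lf ι 0 1) (N := LinearMap.range (Phi ρ φ))
      (fun a ha => mon_mem ι (x := lf ι 1 0) (y := lf ι 0 1) hm (fun t => LinearMap.mem_range.2 ⟨ρ (ll t) s0, funext fun h => by
        rw [Phi_mul, hs0, lf_add, Pi.pow_apply, Pi.pow_apply, lf_mul]; simp⟩) ha) γ δ
    rw [lf_add] at this
    simpa using this
  have h3 : ∀ s, Phi ρ φ s ∈ Submodule.span k (Set.range fun c : k × k => lf ι c.1 c.2 ^ m) := by
    have := hs ((Submodule.span k (Set.range fun c : k × k => lf ι c.1 c.2 ^ m)).comap (Phi ρ φ))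
      ((Submodule.ne_bot_iff _).2 ⟨s0, Submodule.subset_span ⟨(1, 0), hs0.symm⟩, fun e => by
        have := congrFun hs0 (cc 0)
        rw [e, map_zero] at this
        simp [lf] at this⟩) fun g s hs => by
      have h4 : Phi ρ φ (ρ g s) = LinearMap.funLeft k k (· * g) (Phi ρ φ s) := funext fun h => Phi_mul _ _ _ _ _
      rw [Submodule.mem_comap, Submodule.mem_comap, h4]
      refine (Submodule.span_le (p := (Submodule.span k (Set.range fun c : k × k => lf ι c.1 c.2 ^ m)).comap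
        (LinearMap.funLeft k k (· * g)))).2 ?_ hs
      rintro _ ⟨c, rfl⟩
      exact Submodule.subset_span ⟨(_, _), funext fun h => congrArg (· ^ m) (lf_mul ι c.1 c.2 h g).symm⟩
    exact fun s => (this ▸ Submodule.mem_top : s ∈ (Submodule.span k _).comap (Phi ρ φ))
  have h4 : ∀ α β α' β' : k, α * β' - α' * β ≠ 0 → ∃ v : Am k m → V,
      (∀ a, Phi ρ φ (v a) = lf ι α β ^ (m - a) * lf ι α' β' ^ (a : ℕ)) ∧ ⊤ ≤ Submodule.span k (Set.range v) := by
    intro α β α' β' hD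
    choose v hv using fun a : Am k m => mon_mem ι (x := lf ι α β) (y := lf ι α' β') hm
      (fun t => by rw [lf_add]; exact h1 _ _) a.2
    refine ⟨v, hv, fun s _ => ?_⟩
    rw [← Submodule.apply_mem_span_image_iff_mem_span hi]
    refine Submodule.span_le.2 ?_ (h3 s)
    rintro _ ⟨⟨γ, δ⟩, rfl⟩
    have := pow_mem (x := lf ι α β) (y := lf ι α' β') (N := Submodule.span k (Phi ρ φ '' Set.range v))
      (fun a ha => Submodule.subset_span ⟨_, ⟨⟨a, ha⟩, rfl⟩, hv _⟩) ((γ * β' - δ * α') / (α * β' - α' * β))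
      ((δ * α - γ * β) / (α * β' - α' * β))
    rwa [lf_add, show (γ * β' - δ * α') / (α * β' - α' * β) * α + (δ * α - γ * β) / (α * β' - α' * β) * α' = γ by
      rw [div_mul_eq_mul_div, div_mul_eq_mul_div, ← add_div, div_eq_iff hD]; ring,
      show (γ * β' - δ * α') / (α * β' - α' * β) * β + (δ * α - γ * β) / (α * β' - α' * β) * β' = δ by
      rw [div_mul_eq_mul_div, div_mul_eq_mul_div, ← add_div, div_eq_iff hD]; ring] at this
  have h5 : Fintype.card (Am k m) = finrank k V := by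
    obtain ⟨v, hv, hv'⟩ := h4 1 0 0 1 (by simp)
    refine (finrank_eq_card_basis (Basis.mk (LinearIndependent.of_comp (Phi ρ φ) ?_) hv')).symm
    rw [Fintype.linearIndependent_iff]
    intro c hc a
    have := coeff_eq_zero ι hm (c := fun a => if h : a ∈ Am k m then c ⟨a, h⟩ else 0) (fun t => by
      have h6 := congrFun hc (cc t)
      rw [Finset.sum_apply, Pi.zero_apply] at h6
      refine Eq.trans ?_ h6
      rw [← Finset.sum_subset (s₁ := Am k m) (fun a ha => Finset.mem_range.2 (Nat.lt_succ_of_le (mem_Am.1 ha).1))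
        fun a _ ha => by rw [dif_neg ha, zero_mul], ← Finset.sum_coe_sort]
      refine Finset.sum_congr rfl fun a _ => ?_
      rw [dif_pos a.2, Pi.smul_apply, Function.comp_apply, hv]
      simp [lf]) (mem_Am.1 a.2).1
    rwa [dif_pos a.2] at this
  refine ⟨m, hm, ?_, fun g α β α' β' θ θ' hD e e' => ?_⟩
  · have h6 := Phi_mul ρ φ s0 (-1) (cc 0)
    rw [hneg, Module.End.one_apply, hs0] at h6
    rw [← neg_one_pow_eq_one_iff_even h2]
    simpa [lf] using h6.symm
  · obtain ⟨v, hv, hv'⟩ := h4 α β α' β' hD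
    rw [charpoly_of_basis (basisOfTopLeSpanOfCardEqFinrank v hv' h5)
      (μ := fun a => θ ^ (m - a) * θ' ^ (a : ℕ)), Finset.prod_coe_sort (Am k m) fun a => X - C (θ ^ (m - a) * θ' ^ a)]
    intro a
    rw [coe_basisOfTopLeSpanOfCardEqFinrank]
    refine hi (funext fun h => ?_)
    rw [Phi_mul, map_smul, hv]
    simp only [Pi.mul_apply, Pi.pow_apply, Pi.smul_apply, smul_eq_mul, e h, e' h]
    ring

end SL

/-- the sum of a function over the eigenvalues -/
noncomputable def es {k : Type*} [Field k] (Λ : k → ℤ) (P : k[X]) : ℤ := (P.roots.map Λ).sum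

lemma es_mul {k : Type*} [Field k] (Λ : k → ℤ) {P Q : k[X]} (hP : P.Monic) (hQ : Q.Monic) :
    es Λ (P * Q) = es Λ P + es Λ Q := by
  rw [es, roots_mul (mul_ne_zero hP.ne_zero hQ.ne_zero), Multiset.map_add, Multiset.sum_add, es, es]

lemma es_prod {k α : Type*} [Field k] (Λ : k → ℤ) (s : Finset α) (f : α → k) :
    es Λ (∏ a ∈ s, (X - C (f a))) = ∑ a ∈ s, Λ (f a) := by
  have : ∏ a ∈ s, (X - C (f a)) = ((s.val.map f).map fun a => X - C a).prod := by
    rw [Multiset.map_map]; rfl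
  rw [es, this, roots_multiset_prod_X_sub_C, Multiset.map_map]; rfl

universe v

theorem es_nonneg {F k : Type*} [Field F] [Fintype F] [Field k] [IsAlgClosed k] (p : ℕ) [Fact p.Prime] [CharP F p]
    [CharP k p] (ι : F →+* k) (h2 : (-1 : k) ≠ 1) {g₁ g₂ : S2 F} {α₁ β₁ α₁' β₁' θ₁ θ₁' α₂ β₂ α₂' β₂' θ₂ θ₂' : k}
    (d₁ : α₁ * β₁' - α₁' * β₁ ≠ 0) (e₁ : Eig ι g₁ α₁ β₁ θ₁) (e₁' : Eig ι g₁ α₁' β₁' θ₁')
    (d₂ : α₂ * β₂' - α₂' * β₂ ≠ 0) (e₂ : Eig ι g₂ α₂ β₂ θ₂) (e₂' : Eig ι g₂ α₂' β₂' θ₂') (Λ₁ Λ₂ : k → ℤ)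
    (h : ∀ m, m < Fintype.card F → Even m →
      0 ≤ ∑ a ∈ Am k m, (Λ₁ (θ₁ ^ (m - a) * θ₁' ^ a) + Λ₂ (θ₂ ^ (m - a) * θ₂' ^ a))) (n : ℕ) :
    ∀ (V : Type v) [AddCommGroup V] [Module k V] [FiniteDimensional k V] (ρ : Representation k (S2 F) V),
      ρ (-1) = 1 → finrank k V = n → 0 ≤ es Λ₁ (ρ g₁).charpoly + es Λ₂ (ρ g₂).charpoly := by
  induction n using Nat.strong_induction_on with
  | _ n ih =>
  intro V _ _ _ ρ hN hn
  by_cases hred : ∃ W : Submodule k V, W ≠ ⊥ ∧ W ≠ ⊤ ∧ ∀ g, W ≤ W.comap (ρ g)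
  · obtain ⟨W, h0, h1, hW⟩ := hred
    have a1 := ih _ (hn ▸ Submodule.finrank_lt h1) W (ρ.subrepresentation W hW)
      (LinearMap.ext fun v => Subtype.ext (LinearMap.congr_fun hN v)) rfl
    have a2 := ih (finrank k (V ⧸ W)) (by
      have := W.finrank_quotient_add_finrank
      have h2 : finrank k W ≠ 0 := by rwa [Ne, Submodule.finrank_eq_zero]
      omega) (V ⧸ W) (ρ.quotient W hW) (LinearMap.ext fun v => by
        obtain ⟨v, rfl⟩ := W.mkQ_surjective v
        exact congrArg W.mkQ (LinearMap.congr_fun hN v)) rfl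
    rw [H64.Cusp.charpoly_eq_mul W (ρ g₁) (hW _), H64.Cusp.charpoly_eq_mul W (ρ g₂) (hW _),
      es_mul _ (LinearMap.charpoly_monic _) (LinearMap.charpoly_monic _),
      es_mul _ (LinearMap.charpoly_monic _) (LinearMap.charpoly_monic _), add_add_add_comm]
    exact add_nonneg a1 a2
  have hs : ∀ W : Submodule k V, W ≠ ⊥ → (∀ g, W ≤ W.comap (ρ g)) → W = ⊤ := fun W h0 hW => by
    by_contra h1
    exact hred ⟨W, h0, h1, hW⟩
  rcases subsingleton_or_nontrivial V with hV | hV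
  · have : ∀ g, (ρ g).charpoly = 1 := fun g => by
      have h1 := LinearMap.charpoly_natDegree (ρ g)
      rw [finrank_zero_of_subsingleton] at h1
      exact (LinearMap.charpoly_monic _).natDegree_eq_zero.1 h1
    simp [this, es]
  obtain ⟨m, hm, he, h3⟩ := simple_charpoly p ι hs hN h2
  rw [h3 _ _ _ _ _ _ _ d₁ e₁ e₁', h3 _ _ _ _ _ _ _ d₂ e₂ e₂', es_prod, es_prod, ← Finset.sum_add_distrib]
  exact h m hm he

end H5.L2
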