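import Mathlib
import Cfsg.Agent.Lib.Lang.Syl
import Cfsg.Agent.Lib.H5.L2Mod

/-!
Eigenvalues and centralisers of elements in Sylow subgroups of rank two of Chevalley groups.
-/

set_option autoImplicit false
set_option linter.unusedSectionVars false

namespace H5.E8T

open H37 H37.P H38 Cfsg Cfsg.Lie Polynomial H5.L2

universe u

variable {D : ChevalleyDatum} (hD : D ∈ Tabs) (R : RootSys D)

/-- characteristic polynomial of an element -/
noncomputable def cp {K : Type*} [Field K] (g : D.group K) : K[X] :=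
  ((g : GL D.Idx K) : Matrix D.Idx D.Idx K).charpoly

lemma cp_conj {K : Type*} [Field K] (g h : D.group K) : cp (g * h * g⁻¹) = cp h := by
  have := Matrix.charpoly_units_conj (g : GL D.Idx K) ((h : GL D.Idx K) : Matrix D.Idx D.Idx K)
  rw [← Matrix.coe_units_inv] at this
  exact this

lemma es_tor {K : Type*} [Field K] (Λ : K → ℤ) (c : Fin D.rank → Kˣ) :
    es Λ (cp (Elts.tor (EG_R3 hD R K) c)) = D.rank * Λ 1 + ∑ s, Λ (chi R.toRS s c : Kˣ) := by
  have h : ((Elts.tor (EG_R3 hD R K) c : D.group K) : GL D.Idx K) = Elts.tor (isMat hD R K).R3 c :=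
    Elts.map_tor (isMat hD R K).grp_isHom (EG_R3 hD R K) _ c
  rw [cp, h, (isMat hD R K).coe_tor, Matrix.charpoly_diagonal, es_prod, Fintype.sum_sum_type]
  simp [chi_apply]

/-- a unit vector -/
def unitL (j : ℕ) : List ℤ := List.replicate j 0 ++ [1]

lemma getD_unitL : ∀ j i : ℕ, (unitL j).getD i 0 = if i = j then 1 else 0
  | 0, 0 => rfl
  | 0, i + 1 => by simp [unitL]
  | j + 1, 0 => by simp [unitL, List.replicate_succ]
  | j + 1, i + 1 => by simpa [unitL, List.replicate_succ] using getD_unitL j i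

lemma lin_unitL {Γ : Type*} [CommGroup Γ] {l : ℕ} (c : Fin l → Γ) (j : Fin l) : lin (unitL j) c = c j := by
  rw [lin_apply, Finset.prod_eq_single j]
  · rw [getD_unitL, if_pos rfl, zpow_one]
  · intro i _ hi; rw [getD_unitL, if_neg fun e => hi (Fin.ext e), zpow_zero]
  · simp

/-- certificate for a twisted torus of type `r × r` -/
def torChk (D : ChevalleyDatum) (L : List ℕ) (Q : List ℤ) (A B : List (List ℤ)) (i j : ℕ) : Bool :=
  L.all (· < D.nroots) && eigChk D.rank Q A (wactP D L A) && eigChk D.rank Q B (wactP D L B) &&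
    (i < D.rank) && (j < D.rank) && (A.getD i [] == [1]) && (B.getD i [] == []) && (A.getD j [] == []) &&
    (B.getD j [] == [1]) && allLt D.rank fun a => allLt D.rank fun b => (evL (dact D L) Q (unitL a)).getD b 0 == 0

theorem sylow_tor (hS : Smith (cartanMat D) 1 0) (F : Type u) [Field F] [Fintype F] {q : ℕ} (hq : Fintype.card F = q)
    {r : ℕ} [hr : Fact r.Prime] (hrq : ¬ r ∣ q) (hN : (Nat.card (D.group F)).factorization r = 2) {L : List ℕ}
    {Q : List ℤ} {A B : List (List ℤ)} {i j : ℕ} (h : torChk D L Q A B i j = true) (hQ : ev q Q = r)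
    {ζ : (AlgebraicClosure F)ˣ} (hζ : orderOf ζ = r) {x : D.group F} (hx : x ^ r = 1) (hx1 : x ≠ 1) :
    ∃ a < r, ∃ b < r, (a ≠ 0 ∨ b ≠ 0) ∧ cp (fm hD (algebraMap F (AlgebraicClosure F)) x) =
      cp (Elts.tor (EG_R3 hD R _) (pv q A (ζ ^ a) * pv q B (ζ ^ b))) ∧
      ((∀ s, chi R.toRS s (pv q A (ζ ^ a) * pv q B (ζ ^ b)) ≠ 1) →
        ∀ y, Commute x y → r.Coprime (orderOf y) → y = 1) := by
  subst hq
  obtain ⟨p, e, _, _, _, he, hq, hk, hτ⟩ := exists_setup F
  let k := AlgebraicClosure F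
  simp only [torChk, Bool.and_eq_true, allLt_iff, beq_iff_eq, decide_eq_true_eq] at h
  obtain ⟨⟨⟨⟨⟨⟨⟨⟨⟨h1, h2⟩, h3⟩, h4⟩, h5⟩, h6⟩, h7⟩, h8⟩, h9⟩, h10⟩ := h
  have hrp : r ≠ p := by rintro rfl; exact hrq (hq ▸ dvd_pow_self _ he.ne')
  have hi := tor_st_injective hD R (K := k) hS
  have hfin : Finite (D.group F) := Nat.finite_of_card_ne_zero fun e => by simp [e] at hN
  have hμ : Nat.card (Subgroup.zpowers ζ) = r := by rw [Nat.card_zpowers, hζ]
  have hp1 : ∀ z : Subgroup.zpowers ζ, (z : kˣ) ^ ev (Fintype.card F) Q = 1 := fun z => by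
    rw [hQ, zpow_natCast, ← Subgroup.coe_pow, ← hμ, pow_card_eq_one', Subgroup.coe_one]
  let C : Subgroup.zpowers ζ × Subgroup.zpowers ζ →* (Fin D.rank → kˣ) :=
    { toFun := fun z => pv (Γ := kˣ) (Fintype.card F) A z.1 * pv (Γ := kˣ) (Fintype.card F) B z.2
      map_one' := by funext j; simp [pv, Pi.mul_apply]
      map_mul' := fun x y => by funext j; simp [pv, Pi.mul_apply, mul_zpow, mul_mul_mul_comm] }
  have hC : ∀ z, C z ^ Fintype.card F = wact R.toRS (finL _ L) (C z) := fun z => by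
    simp only [C, MonoidHom.coe_mk, OneHom.coe_mk, map_mul, mul_pow, wact_pv, map_finL h1]
    rw [pv_pow h2 (hp1 _), pv_pow h3 (hp1 _)]
  obtain ⟨g, hg⟩ := exists_twist hD R (p := p) he k (nL (EG hD R k) (finL _ L))
  let Φ := (MulAut.conj g).toMonoidHom.comp ((Elts.tor (EG_R3 hD R k)).comp C)
  have hΦ : ∀ z, Φ z ∈ (fm hD (algebraMap F k)).range := fun z =>
    twisted_mem hτ hi hg (by rw [map_frob, ← hq, hC])
  let ψ := (MonoidHom.ofInjective (fm_injective hD (algebraMap F k))).symm.toMonoidHom.comp (Φ.codRestrict _ hΦ)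
  have hψ : ∀ z, fm hD (algebraMap F k) (ψ z) = g * Elts.tor (EG_R3 hD R k) (C z) * g⁻¹ := fun z =>
    MonoidHom.apply_ofInjective_symm (fm_injective hD _) _
  have hψi : Function.Injective ψ := (injective_iff_map_eq_one _).mpr fun z hz => by
    have h11 := hψ z
    rw [hz, map_one, eq_comm, mul_inv_eq_one, mul_eq_left, map_eq_one_iff _ (tor_injective hD R hS)] at h11
    have h12 := congrFun h11 ⟨i, h4⟩
    have h13 := congrFun h11 ⟨j, h5⟩
    simp only [C, MonoidHom.coe_mk, OneHom.coe_mk, Pi.mul_apply, pv, h6, h7, h8, h9, P.ev, mul_zero, add_zero,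
      zpow_one, zpow_zero, mul_one, one_mul, Pi.one_apply, OneMemClass.coe_eq_one] at h12 h13
    exact Prod.ext h12 h13
  let P : Sylow r (D.group F) := Sylow.ofCard ψ.range (by
    rw [← Nat.card_congr (MonoidHom.ofInjective hψi).toEquiv, Nat.card_prod, hμ, hN, sq])
  obtain ⟨P', hP'⟩ := (IsPGroup.of_card (G := Subgroup.zpowers x) (n := 1) (by
    rw [Nat.card_zpowers, pow_one, orderOf_eq_prime hx hx1])).exists_le_sylow
  obtain ⟨c, hc⟩ := MulAction.exists_smul_eq (D.group F) P' P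
  obtain ⟨z, hz⟩ : c * x * c⁻¹ ∈ ψ.range := by
    change c * x * c⁻¹ ∈ (P : Subgroup (D.group F))
    rw [← hc, Sylow.coe_subgroup_smul]
    exact Subgroup.smul_mem_pointwise_smul x (MulAut.conj c) _ (hP' (Subgroup.mem_zpowers x))
  have hfo : IsOfFinOrder ζ := orderOf_pos_iff.1 (hζ ▸ hr.out.pos)
  have hex : ∀ w : Subgroup.zpowers ζ, ∃ a < r, ζ ^ a = w := fun w => by
    classical
    have := hfo.mem_zpowers_iff_mem_range_orderOf.1 w.2
    simpa [hζ] using this
  obtain ⟨a, ha, ea⟩ := hex z.1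
  obtain ⟨b, hb, eb⟩ := hex z.2
  have hz' := hψ z
  rw [hz] at hz'
  refine ⟨a, ha, b, hb, ?_, ?_, fun hreg y hy hco => ?_⟩
  · by_contra h
    push Not at h
    rw [h.1, pow_zero, eq_comm, OneMemClass.coe_eq_one] at ea
    rw [h.2, pow_zero, eq_comm, OneMemClass.coe_eq_one] at eb
    rw [show z = 1 from Prod.ext ea eb, map_one, eq_comm, mul_inv_eq_one, mul_eq_left] at hz
    exact hx1 hz
  · rw [ea, eb, ← cp_conj (fm hD _ c), ← map_inv, ← map_mul, ← map_mul, hz', cp_conj]; rfl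
  · rw [ea, eb] at hreg
    have ho : orderOf (g⁻¹ * fm hD (algebraMap F k) (c * y * c⁻¹) * g) = orderOf y := by
      have := orderOf_injective (((MulAut.conj g⁻¹).toMonoidHom.comp (fm hD (algebraMap F k))).comp
        (MulAut.conj c).toMonoidHom) (((MulAut.conj g⁻¹).injective.comp (fm_injective hD _)).comp
          (MulAut.conj c).injective) y
      simpa only [MonoidHom.comp_apply, MulEquiv.coe_toMonoidHom, MulAut.conj_apply, inv_inv] using this
    have h11 := mem_BS_of_commute (hD := hD) (R := R) hk isSub_univ hr.out hrp (a := 1)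
      (t := Elts.tor (EG_R3 hD R k) (C z)) (s := g⁻¹ * fm hD (algebraMap F k) (c * y * c⁻¹) * g) (tor_mem _ _)
      (EG_BS_univ hD R k ▸ trivial) (by
        have := ((hy.map (MulAut.conj c).toMonoidHom).map (fm hD (algebraMap F k))).map
          (MulAut.conj g⁻¹).toMonoidHom
        simp only [MulEquiv.coe_toMonoidHom, MulAut.conj_apply, inv_inv, hz'] at this
        rwa [show g⁻¹ * (g * Elts.tor (EG_R3 hD R k) (C z) * g⁻¹) * g = Elts.tor (EG_R3 hD R k) (C z) by group] at this)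
      (by rw [← map_pow, ← map_pow, pow_one, show z ^ r = 1 from Prod.ext (by
          rw [Prod.pow_fst, ← hμ, pow_card_eq_one']; rfl) (by rw [Prod.pow_snd, ← hμ, pow_card_eq_one']; rfl),
        map_one, map_one]) (ho ▸ hco)
    have h15 : Set.univ ∩ Ker (EG hD R k) {Elts.tor (EG_R3 hD R k) (C z)} = ∅ := Set.eq_empty_of_forall_notMem
      fun s hs => hreg s ((mem_Ker_tor (EG_faith hD R k) (EG_R3 hD R k)).mp hs.2)
    obtain ⟨c', h12, h13⟩ := exists_of_twisted hτ hi hg (BS_empty (E := EG hD R k) ▸ h15 ▸ h11)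
    rw [map_frob, ← hq] at h12
    have h14 : c' ^ r = 1 := funext fun a => by
      rw [Pi.pow_apply, ← lin_unitL c' a, ← zpow_natCast, ← hQ, lin_evL (fD := dact D L) fun lam => by
        rw [zpow_natCast, ← map_pow, h12, lin_wact, map_finL h1], lin_apply]
      exact Finset.prod_eq_one fun b _ => by rw [h10 a a.2 b b.2, zpow_zero]
    exact orderOf_eq_one_iff.1 (Nat.eq_one_of_dvd_coprimes hco (ho ▸ orderOf_dvd_of_pow_eq_one (by
      rw [← h13, ← map_pow, h14, map_one])) dvd_rfl)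

theorem invol_tor (hS : Smith (cartanMat D) 1 0) {p : ℕ} [Fact p.Prime] {k : Type u} [Field k] [IsAlgClosed k]
    [CharP k p] (hk : LocFin k p) (hp : 2 ≠ p) {t : D.group k} (ht : t ^ 2 = 1) : ∃ n : ℕ → ℕ, (∀ i, n i < 2) ∧
      cp t = cp (Elts.tor (EG_R3 hD R k) fun i => (-1) ^ n i) := by
  obtain ⟨g, -, hg⟩ := exists_conj_H_primePow (hD := hD) (R := R) hk isSub_univ Nat.prime_two hp (a := 1) (t := t)
    (EG_BS_univ hD R k ▸ trivial) ht
  obtain ⟨c, hc⟩ := exists_tor (EG_R3 hD R k) hg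
  have h1 : c ^ 2 = 1 := tor_injective hD R hS (by
    rw [map_pow, map_one, hc, show g⁻¹ * t * g = g⁻¹ * t * g⁻¹⁻¹ by rw [inv_inv], conj_pow, ht]; group)
  have h2 : ∀ i, ∃ n < 2, c i = (-1) ^ n := fun i => by
    have h3 : ((c i : kˣ) : k) ^ 2 = 1 := congrArg Units.val (congrFun h1 i)
    rcases sq_eq_one_iff.1 h3 with h | h
    · exact ⟨0, by omega, Units.ext (by simpa using h)⟩
    · exact ⟨1, by omega, Units.ext (by simpa using h)⟩
  choose n h3 h4 using h2
  refine ⟨fun i => if h : i < D.rank then n ⟨i, h⟩ else 0, fun i => ?_, ?_⟩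
  · dsimp only; split_ifs; exacts [h3 _, by omega]
  · rw [← cp_conj g⁻¹, inv_inv, ← hc]
    congr 2
    funext i
    simp only [dif_pos i.2, h4]

end H5.E8T
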