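import Mathlib
import Cfsg.Agent.Lib.H5.E8Tor

/-!
Certificates excluding subgroups `L₂(3ⁿ)` of Chevalley groups over the field with three elements.
-/

set_option autoImplicit false
set_option linter.unusedSectionVars false

namespace H5.E8T

open H37 H37.P H38 Cfsg Cfsg.Lie Polynomial H5.L2

/-- evaluation of an argument -/
def frc {α : Type} (x : ℕ) (f : ℕ → α) : α := Nat.rec (motive := fun _ => α) (f 0) (fun k _ => f k) (Nat.succ x)

lemma frc_eq {α : Type} (x : ℕ) (f : ℕ → α) : frc x f = f x := rfl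

/-- bytes -/
def byt (T k : ℕ) : ℕ := Nat.mod (Nat.shiftRight T (Nat.mul 8 k)) 256

/-- sums over the exponents with binomial coefficient prime to three -/
def sm (n : ℕ) : ℕ → (ℕ → ℕ) → ℕ :=
  Nat.rec (fun _ f => f 0) (fun _ ih m f => frc (Nat.mod m 3) fun d => frc (Nat.div m 3) fun m' => ih m' fun x =>
    frc (Nat.mul 3 x) fun y => Nat.add (Nat.add (f y) (cond (Nat.ble 1 d) (f (Nat.succ y)) 0))
      (cond (Nat.ble 2 d) (f (Nat.add y 2)) 0)) n

lemma sm_succ (n m : ℕ) (f : ℕ → ℕ) : sm (n + 1) m f = sm n (m / 3) fun x =>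
    f (3 * x) + cond (Nat.ble 1 (m % 3)) (f (3 * x + 1)) 0 + cond (Nat.ble 2 (m % 3)) (f (3 * x + 2)) 0 := rfl

/-- sums of constants -/
def sc (n : ℕ) : ℕ → ℕ → ℕ := Nat.rec (fun _ c => c) (fun _ ih m c => ih (m / 3) (c * (m % 3 + 1))) n

lemma sc_eq (n : ℕ) : ∀ m c, sc n m c = sm n m fun _ => c := by
  induction n with
  | zero => intro m c; rfl
  | succ n ih =>
    intro m c
    rw [sm_succ]
    refine (ih _ _).trans (congrArg _ (funext fun x => ?_))
    have h1 := Nat.mod_lt m (show 0 < 3 by omega)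
    generalize m % 3 = y at h1
    interval_cases y <;> simp [Nat.ble] <;> ring

lemma sum3 (g : ℕ → ℕ) (N : ℕ) : ∑ x ∈ Finset.range (3 * N), g x =
    ∑ x ∈ Finset.range N, (g (3 * x) + g (3 * x + 1) + g (3 * x + 2)) := by
  induction N with
  | zero => rfl
  | succ N ih =>
    rw [Finset.sum_range_succ, ← ih, show 3 * (N + 1) = 3 * N + 1 + 1 + 1 by ring, Finset.sum_range_succ,
      Finset.sum_range_succ, Finset.sum_range_succ]
    ring

lemma lucas (m x i : ℕ) (hi : i < 3) : 3 ∣ m.choose (3 * x + i) ↔ m % 3 < i ∨ 3 ∣ (m / 3).choose x := by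
  have : Fact (Nat.Prime 3) := ⟨Nat.prime_three⟩
  have h := Choose.choose_modEq_choose_mod_mul_choose_div_nat (n := m) (k := 3 * x + i) (p := 3)
  rw [show (3 * x + i) % 3 = i by omega, show (3 * x + i) / 3 = x by omega] at h
  rw [h.dvd_iff dvd_rfl, Nat.prime_three.dvd_mul]
  refine or_congr_left ?_
  have h1 := Nat.mod_lt m (show 0 < 3 by omega)
  generalize m % 3 = y at h1
  interval_cases y <;> interval_cases i <;> decide

lemma sm_eq (n : ℕ) : ∀ m < 3 ^ n, ∀ f : ℕ → ℕ,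
    sm n m f = ∑ a ∈ Finset.range (3 ^ n), if 3 ∣ m.choose a then 0 else f a := by
  induction n with
  | zero => intro m hm f; simp [sm]
  | succ n ih =>
    intro m hm f
    rw [pow_succ', sum3, sm_succ]
    refine (ih (m / 3) (by omega) _).trans (Finset.sum_congr rfl fun x _ => ?_)
    have h0 := lucas m x 0 (by omega)
    rw [add_zero] at h0
    simp only [h0, lucas m x 1 (by omega), lucas m x 2 (by omega)]
    have h1 := Nat.mod_lt m (show 0 < 3 by omega)
    generalize m % 3 = y at h1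
    by_cases h : 3 ∣ (m / 3).choose x <;> interval_cases y <;> simp [h, Nat.ble]

lemma sum_Am (k : Type*) [Field k] [CharP k 3] {n m : ℕ} (hm : m < 3 ^ n) (f : ℕ → ℕ) :
    ∑ a ∈ Am k m, f a = sm n m f := by
  rw [sm_eq n m hm]
  simp only [← ite_not (3 ∣ _)]
  rw [← Finset.sum_filter]
  refine Finset.sum_congr (Finset.ext fun a => ?_) fun _ _ => rfl
  rw [mem_Am, Finset.mem_filter, Finset.mem_range, Ne, CharP.cast_eq_zero_iff k 3]
  refine and_congr_left fun h => ⟨fun h => by omega, fun _ => ?_⟩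
  by_contra h1
  exact h (by rw [Nat.choose_eq_zero_of_lt (by omega)]; exact dvd_zero _)

/-- a table of integers -/
def lam (T j : ℕ) : ℤ := (byt T j : ℤ) - 128

/-- sums of natural numbers -/
def sumN (n : ℕ) (f : ℕ → ℕ) : ℕ := Nat.rec 0 (fun k ih => Nat.add ih (f k)) n

lemma sumN_eq (n : ℕ) (f : ℕ → ℕ) : sumN n f = ∑ k : Fin n, f k := by
  rw [Fin.sum_univ_eq_sum_range]
  induction n with
  | zero => rfl
  | succ n ih => rw [Finset.sum_range_succ, ← ih]; rfl

/-- the functional is non-negative on all simple modules -/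
def modChk (r n : ℕ) (c : ℕ × ℕ × ℕ) : Bool :=
  allLt ((3 ^ n + 1) / 2) fun m => Nat.ble (sc n (2 * m) (128 + c.2.2)) (sm n (2 * m) fun a => frc a fun a =>
    Nat.add (byt c.1 (Nat.mod (Nat.add (Nat.mul 2 m) (Nat.mul (Nat.sub r 2) a)) r))
      (cond (Nat.beq (Nat.mod (Nat.add m a) 2) 1) c.2.1 c.2.2))

lemma modChk_spec (k : Type*) [Field k] [CharP k 3] {r n : ℕ} {c : ℕ × ℕ × ℕ} (h : modChk r n c = true) {m : ℕ}
    (hm : 2 * m < 3 ^ n) : 0 ≤ ∑ a ∈ Am k (2 * m),
      (lam c.1 ((2 * m + (r - 2) * a) % r) + ((c.2.1 : ℤ) - c.2.2) * ((a + m) % 2 : ℕ)) := by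
  simp only [modChk, allLt_iff, Nat.ble_eq] at h
  have h1 := h m (by omega)
  rw [sc_eq, ← sum_Am k hm, ← sum_Am k hm, ← Nat.cast_le (α := ℤ), ← sub_nonneg, Nat.cast_sum, Nat.cast_sum,
    ← Finset.sum_sub_distrib] at h1
  refine h1.trans_eq (Finset.sum_congr rfl fun a _ => ?_)
  change ((byt c.1 ((2 * m + (r - 2) * a) % r) + cond (Nat.beq ((m + a) % 2) 1) c.2.1 c.2.2 : ℕ) : ℤ) - _ = _
  rw [lam, add_comm a]
  rcases Nat.mod_two_eq_zero_or_one (m + a) with h | h <;> simp [h, Nat.beq] <;> ring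

/-- table of Cartan integers -/
def ctChk (D : ChevalleyDatum) (T : ℕ) : Bool :=
  allLt D.rank fun i => ((D.cartanSR.getD i #[]).size == D.nroots) &&
    allIdx (fun s c => c == lam T (D.rank * s + i)) (D.cartanSR.getD i #[]).toList 0

lemma ctChk_spec {D : ChevalleyDatum} {T : ℕ} (h : ctChk D T = true) (i : Fin D.rank) (s : Fin D.nroots) :
    D.cartan i s = lam T (D.rank * s + i) := by
  simp only [ctChk, allLt_iff, Bool.and_eq_true, beq_iff_eq] at h
  exact beq_iff_eq.1 (allIdx_getD (h i i.2).2 (k := s) (by rw [(h i i.2).1]; exact s.2) 0)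

/-- values of the roots on a cocharacter -/
def uvChk (D : ChevalleyDatum) (T r : ℕ) (A : List (List ℤ)) (U : ℕ) : Bool :=
  allLt D.nroots fun s => (sumLt D.rank fun j => lam T (D.rank * s + j) * P.ev 3 (A.getD j [])) % r == byt U s

/-- exponents -/
def ex (r U V a b s : ℕ) : ℕ := Nat.mod (Nat.add (Nat.mul a (byt U s)) (Nat.mul b (byt V s))) r

lemma ex_eq (r U V a b s : ℕ) : ex r U V a b s = (a * byt U s + b * byt V s) % r := rfl

/-- value of a functional on a torus element -/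
def sE (D : ChevalleyDatum) (r U V a b T : ℕ) : ℕ := D.rank * byt T 0 + sumN D.nroots fun s => byt T (ex r U V a b s)

/-- check for one torus element -/
def pairChk (D : ChevalleyDatum) (r U V : ℕ) (C : List (ℕ × ℕ × ℕ)) (H H' : ℕ) (a b : ℕ) : Bool :=
  C[byt H (r * a + b)]?.any fun c => frc (sE D r U V a b c.1) fun S =>
    Nat.blt (S + 128 * c.2.1) (128 * (D.rank + D.nroots)) || (Nat.blt (S + 112 * c.2.1) (128 * (D.rank + D.nroots)) &&
      C[byt H' (r * a + b)]?.any fun c =>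
        Nat.blt (sE D r U V a b c.1 + 128 * c.2.1) (128 * (D.rank + D.nroots) + 128 * c.2.2))

lemma pairChk_spec {D : ChevalleyDatum} {r U V : ℕ} {C : List (ℕ × ℕ × ℕ)} {H H' a b : ℕ}
    (h : pairChk D r U V C H H' a b = true) {N : ℕ} (hN : N ≤ 112 ∨ N = 128) : ∃ c ∈ C,
      D.rank * lam c.1 0 + ∑ s : Fin D.nroots, lam c.1 (ex r U V a b s) + ((c.2.1 : ℤ) - c.2.2) * N < 0 := by
  have key : ∀ c : ℕ × ℕ × ℕ, sE D r U V a b c.1 + N * c.2.1 < 128 * (D.rank + D.nroots) + N * c.2.2 →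
      D.rank * lam c.1 0 + ∑ s : Fin D.nroots, lam c.1 (ex r U V a b s) + ((c.2.1 : ℤ) - c.2.2) * N < 0 := by
    intro c hc
    rw [sE, sumN_eq, ← Nat.cast_lt (α := ℤ)] at hc
    push_cast at hc
    simp only [lam, Finset.sum_sub_distrib, Finset.sum_const, Finset.card_univ, Fintype.card_fin, nsmul_eq_mul]
    linarith
  rw [pairChk, Option.any_eq_true] at h
  obtain ⟨c, h1, h⟩ := h
  rw [frc_eq] at h
  simp only [Bool.or_eq_true, Bool.and_eq_true, Option.any_eq_true, Nat.blt_eq] at h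
  rcases h with h | ⟨h2, c', h3, h4⟩
  · exact ⟨c, List.mem_of_getElem? h1, key c (by nlinarith [show N ≤ 128 by omega, Nat.zero_le (N * c.2.2)])⟩
  · rcases hN with hN | rfl
    · exact ⟨c, List.mem_of_getElem? h1, key c (by nlinarith [Nat.zero_le (N * c.2.2)])⟩
    · exact ⟨c', List.mem_of_getElem? h3, key c' h4⟩

/-- the lines of non-regular elements -/
def lineChk (D : ChevalleyDatum) (r U V : ℕ) (W : List ℕ) : Bool :=
  allLt D.nroots fun s => Nat.blt 0 (byt V s) && Nat.blt (byt V s) r &&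
    W.any fun w => Nat.beq ((byt U s + w * byt V s) % r) 0

lemma lineChk_spec {D : ChevalleyDatum} {r U V : ℕ} {W : List ℕ} (hr : r.Prime) (h : lineChk D r U V W = true)
    {a b s : ℕ} (hb : b < r) (hs : s < D.nroots) (h0 : ex r U V a b s = 0) : ∃ w ∈ W, b = a * w % r := by
  simp only [lineChk, allLt_iff, Bool.and_eq_true, Nat.blt_eq, List.any_eq_true, Nat.beq_eq] at h
  obtain ⟨⟨h1, h2⟩, w, hw, h3⟩ := h s hs
  refine ⟨w, hw, ?_⟩
  have h4 : a * byt U s + b * byt V s ≡ a * byt U s + a * w * byt V s [MOD r] := by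
    rw [mul_assoc, ← mul_add]
    exact (ex_eq r U V a b s ▸ h0).trans (Nat.mod_eq_zero_of_dvd ((Nat.dvd_of_mod_eq_zero h3).mul_left _)).symm
  rw [← Nat.mod_eq_of_lt hb]
  exact (h4.add_left_cancel' _).cancel_right_of_coprime (Nat.coprime_of_lt_prime h1.ne' h2 hr)

/-- all lists of bits -/
def allB (n : ℕ) : (List ℕ → Bool) → Bool :=
  Nat.rec (fun f => f []) (fun _ ih f => ih fun l => f (0 :: l) && f (1 :: l)) n

lemma allB_spec (n : ℕ) : ∀ f : List ℕ → Bool, allB n f = true → ∀ l : List ℕ, l.length = n → (∀ x ∈ l, x < 2) →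
    f l = true := by
  induction n with
  | zero => intro f h l hl _; rw [List.length_eq_zero_iff.1 hl]; exact h
  | succ n ih =>
    intro f h l hl h2
    obtain _ | ⟨x, l⟩ := l
    · simp at hl
    have := ih _ h l (by simpa using hl) fun y hy => h2 y (by simp [hy])
    rw [Bool.and_eq_true] at this
    have h3 := h2 x (by simp)
    interval_cases x
    exacts [this.1, this.2]

/-- parity table -/
def par (T s i : ℕ) : ℕ := Nat.mod (Nat.shiftRight (byt T s) i) 2

/-- number of eigenvalues `-1` -/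
def cnt (D : ChevalleyDatum) (T : ℕ) (l : List ℕ) : ℕ :=
  sumN D.nroots fun s => Nat.mod (sumN D.rank fun i => Nat.mul (l.getD i 0) (par T s i)) 2

/-- the possible numbers of eigenvalues `-1` of an involution -/
def invChk (D : ChevalleyDatum) (CT T : ℕ) : Bool :=
  (allLt D.nroots fun s => allLt D.rank fun i => lam CT (D.rank * s + i) % 2 == par T s i) &&
    allB D.rank fun l => frc (cnt D T l) fun N => Nat.ble N 112 || Nat.beq N 128

variable {D : ChevalleyDatum} (hD : D ∈ Tabs) (R : RootSys D)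

lemma chi_ex {Γ : Type*} [CommGroup Γ] {r U V T : ℕ} {A B : List (List ℤ)} (hT : ctChk D T = true)
    (hA : uvChk D T r A U = true) (hB : uvChk D T r B V = true) {ζ : Γ} (hζ : orderOf ζ = r) (a b : ℕ) (s : Fin D.nroots) :
    chi R.toRS s (pv (3 : ℕ) A (ζ ^ a) * pv (3 : ℕ) B (ζ ^ b)) = ζ ^ ex r U V a b s := by
  simp only [uvChk, allLt_iff, beq_iff_eq] at hA hB
  rw [map_mul, chi_pv, chi_pv, ← zpow_natCast, ← zpow_natCast, ← zpow_mul, ← zpow_mul, ← zpow_add, ← zpow_natCast,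
    zpow_eq_zpow_iff_modEq, hζ, ex_eq]
  push_cast
  rw [← hA s s.2, ← hB s s.2, chiP, chiP, ev_linP, ev_linP, sumLt_eq, sumLt_eq]
  simp only [ctChk_spec hT]
  exact (((Int.mod_modEq _ _).symm.mul_left _).add ((Int.mod_modEq _ _).symm.mul_left _)).trans
    (Int.mod_modEq _ _).symm

open Classical in
/-- the indicator function of `-1` -/
noncomputable def ind {k : Type*} [Field k] (y : ℤ) (u : k) : ℤ := if u = -1 then y else 0

lemma ind_pow {k : Type*} [Field k] (h2 : (-1 : k) ≠ 1) (y : ℤ) (n : ℕ) :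
    ind y ((-1 : k) ^ n) = y * (n % 2 : ℕ) := by
  rcases Nat.even_or_odd n with h | h
  · rw [h.neg_one_pow, ind, if_neg h2.symm, Nat.even_iff.1 h]; simp
  · rw [h.neg_one_pow, ind, if_pos rfl, Nat.odd_iff.1 h]; simp

include hD R in
lemma es_invol (hS : Smith (cartanMat D) 1 0) {CT T : ℕ} (hCT : ctChk D CT = true) (hT : invChk D CT T = true)
    {k : Type*} [Field k] [IsAlgClosed k] [CharP k 3] (hk : LocFin k 3) (h2 : (-1 : k) ≠ 1) {t : D.group k} (ht : t ^ 2 = 1) :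
    ∃ N : ℕ, (N ≤ 112 ∨ N = 128) ∧ ∀ y, es (ind y) (cp t) = y * N := by
  have : Fact (Nat.Prime 3) := ⟨Nat.prime_three⟩
  obtain ⟨n, h1, h3⟩ := invol_tor hD R hS hk (by decide) ht
  simp only [invChk, Bool.and_eq_true, allLt_iff, beq_iff_eq] at hT
  have h4 := allB_spec _ _ hT.2 ((List.range D.rank).map n) (by simp) (by
    intro x hx
    obtain ⟨i, -, rfl⟩ := List.mem_map.1 hx
    exact h1 i)
  rw [frc_eq] at h4
  refine ⟨_, by simpa only [Bool.or_eq_true, Nat.ble_eq, Nat.beq_eq] using h4, fun y => ?_⟩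
  rw [h3, es_tor, ind, if_neg h2.symm, mul_zero, zero_add, cnt, sumN_eq, Nat.cast_sum, Finset.mul_sum]
  refine Finset.sum_congr rfl fun s _ => ?_
  change _ = y * ((sumN D.rank fun i => ((List.range D.rank).map n).getD i 0 * par T s i) % 2 : ℕ)
  rw [← ind_pow h2, sumN_eq, chi_apply, ← Finset.prod_pow_eq_pow_sum]
  congr 1
  push_cast
  refine Finset.prod_congr rfl fun i _ => ?_
  rw [getD_range i.2, pow_mul, ← zpow_natCast _ (par _ _ _), ← hT.1 s s.2 i i.2, ← ctChk_spec hCT,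
    R.cartan_eq]
  nth_rw 1 [← Int.emod_add_mul_ediv (R.wt s i) 2]
  rw [zpow_add₀ (by simp), zpow_mul, zpow_two, ← mul_pow]
  simp

open Classical in
/-- a function on the powers of `ζ` -/
noncomputable def tabF {k : Type*} [Field k] (ζ : kˣ) (r T : ℕ) (u : k) : ℤ :=
  if h : ∃ j < r, ((ζ ^ j : kˣ) : k) = u then lam T h.choose else 0

lemma tabF_pow {k : Type*} [Field k] {ζ : kˣ} {r : ℕ} (hζ : orderOf ζ = r) (T : ℕ) {j : ℕ} (hj : j < r) :
    tabF ζ r T (ζ ^ j : kˣ) = lam T j := by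
  have h : ∃ i < r, ((ζ ^ i : kˣ) : k) = (ζ ^ j : kˣ) := ⟨j, hj, rfl⟩
  rw [tabF, dif_pos h, pow_injOn_Iio_orderOf (x := ζ) (by simpa [hζ] using h.choose_spec.1) (by simpa [hζ] using hj)
    (Units.ext h.choose_spec.2)]

section Eig

variable {F k : Type*} [Field F] [Field k] (ι : F →+* k)

lemma eq_one_of_eig {g : S2 F} {α β α' β' : k} (hd : α * β' - α' * β ≠ 0) (h : Eig ι g α β 1) (h' : Eig ι g α' β' 1) :
    g = 1 := by
  have h1 := h 1
  have h2 := h' 1
  have h3 := h (cc 0)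
  have h4 := h' (cc 0)
  simp only [lf, en_mul, en_one10, en_one11, en_cc10, en_cc11, one_mul, zero_mul, add_zero, zero_add, map_zero,
    map_one] at h1 h2 h3 h4
  apply ext2 <;> apply ι.injective <;> apply mul_left_cancel₀ hd <;> simp only [en_one00, en_one01, en_one10,
    en_one11, map_zero, map_one]
  · linear_combination β' * h3 - β * h4
  · linear_combination α * h4 - α' * h3
  · linear_combination β' * h1 - β * h2
  · linear_combination α * h2 - α' * h1

lemma sq_eq_one_of_eig {g : S2 F} {β θ : k} (h : Eig ι g 1 β θ) (hg : g ∈ Subgroup.center (S2 F)) : θ ^ 2 = 1 := by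
  obtain ⟨c, hc, e⟩ := Matrix.SpecialLinearGroup.mem_center_iff.1 hg
  have h1 := h (cc 0)
  have h2 : en g 0 0 = c := by rw [en, ← e]; simp
  have h3 : en g 0 1 = 0 := by rw [en, ← e]; simp
  simp only [lf, en_mul, en_cc10, en_cc11, one_mul, zero_mul, add_zero, map_zero, map_one, h2, h3, mul_one] at h1
  rw [← h1, ← map_pow, show c ^ 2 = 1 by simpa using hc, map_one]

end Eig

include hD R in
theorem no_L2 (hS : Smith (cartanMat D) 1 0) {r : ℕ} [hr : Fact r.Prime] (hr3 : ¬ r ∣ 3) (hr2 : 2 ≤ r)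
    (hN : (Nat.card (D.group (ZMod 3))).factorization r = 2) {L : List ℕ} {Q : List ℤ} {A B : List (List ℤ)}
    {i j : ℕ} (h1 : torChk D L Q A B i j = true) (hQ : P.ev (3 : ℕ) Q = r) {U V CT T H H' n e a b : ℕ}
    {C : List (ℕ × ℕ × ℕ)} {W : List ℕ} (hCT : ctChk D CT = true) (hA : uvChk D CT r A U = true)
    (hB : uvChk D CT r B V = true) (hT : invChk D CT T = true) (hC : C.all (modChk r n) = true)
    (hW : lineChk D r U V W = true)
    (hP : (W.all fun w => allLt r fun a => a == 0 || pairChk D r U V C H H' a (a * w % r)) = true)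
    (he : 3 ^ n + 1 = e * r) (ha : 3 ^ n + 1 = a * b) (hb : r.Coprime b) (he' : ¬ 3 ^ n + 1 ∣ e * 2)
    (ha' : ¬ 3 ^ n + 1 ∣ a * 2) (hn : 0 < n) {F : Type*} [Field F] [Fintype F] (hF : Fintype.card F = 3 ^ n)
    (ψ : S2 F →* D.group (ZMod 3)) (hψ : ψ.ker = Subgroup.center _) : False := by
  have : Fact (Nat.Prime 3) := ⟨Nat.prime_three⟩
  let k := AlgebraicClosure (ZMod 3)
  have : CharP F 3 := charP_of_card_eq_prime_pow hF
  let _ := ZMod.algebra F 3
  let ι : F →+* k := (IsAlgClosed.lift (R := ZMod 3) (S := F) (M := k)).toRingHom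
  have : Fact (2 < 3) := ⟨by omega⟩
  have h2 : (-1 : k) ≠ 1 := CharP.neg_one_ne_one k 3
  have : NeZero ((3 ^ n + 1 : ℕ) : k) := ⟨by
    rw [Ne, CharP.cast_eq_zero_iff k 3, Nat.dvd_add_right (dvd_pow_self _ hn.ne')]; decide⟩
  obtain ⟨y, hy⟩ := HasEnoughRootsOfUnity.exists_primitiveRoot k (3 ^ n + 1)
  obtain ⟨θ, rfl⟩ := hy.isUnit (by omega)
  have ho : orderOf θ = 3 ^ n + 1 := (IsPrimitiveRoot.coe_units_iff.1 hy).eq_orderOf.symm
  have h3 : (θ : k) ^ 3 ^ n = (θ : k)⁻¹ := eq_inv_of_mul_eq_one_left (by rw [← pow_succ, hy.pow_eq_one])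
  obtain ⟨τ, hτ⟩ := (mem_range_iff_pow_card ι ((θ : k) + (θ : k)⁻¹)).1 (by
    rw [hF, add_pow_char_pow, inv_pow, h3, inv_inv, add_comm])
  have e1 : Eig ι (cc τ) 1 (-θ) θ := eig_cc ι (by
    rw [hτ]; linear_combination -mul_inv_cancel₀ θ.ne_zero)
  have e2 : Eig ι (cc τ) 1 (-(θ : k)⁻¹) (θ : k)⁻¹ := eig_cc ι (by
    rw [hτ]; linear_combination -mul_inv_cancel₀ θ.ne_zero)
  have h4 : ∀ m, ¬ 3 ^ n + 1 ∣ m * 2 → ψ (cc τ ^ m) ≠ 1 := fun m hm h => hm (by
    rw [← hy.pow_eq_one_iff_dvd, pow_mul]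
    exact sq_eq_one_of_eig ι (e1.pow ι m) (hψ ▸ h))
  have hd : 1 * -(θ : k)⁻¹ - 1 * -(θ : k) ≠ 0 := fun h => he' (dvd_mul_of_dvd_right (by
    rw [← hy.pow_eq_one_iff_dvd, sq]
    exact mul_eq_one_iff_eq_inv₀ θ.ne_zero |>.2 (by linear_combination h)) _)
  have h5 : cc τ ^ (3 ^ n + 1) = 1 := eq_one_of_eig ι hd (by simpa only [hy.pow_eq_one] using e1.pow ι (3 ^ n + 1))
    (by simpa only [inv_pow, hy.pow_eq_one, inv_one] using e2.pow ι (3 ^ n + 1))
  have hζ : orderOf (θ ^ e) = r := by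
    rw [orderOf_pow' _ (by rintro rfl; omega), ho, he, Nat.gcd_eq_right (dvd_mul_right _ _),
      Nat.mul_div_cancel_left _ (Nat.pos_of_ne_zero (by rintro rfl; omega))]
  obtain ⟨a', ha1, b', hb1, h6, h7, h8⟩ := sylow_tor hD R hS (ZMod 3) (ZMod.card 3) hr3 hN h1 hQ hζ
    (x := ψ (cc τ ^ e)) (by rw [← map_pow, ← pow_mul, ← he, h5, map_one]) (h4 e he')
  have hm : ψ (-1) = 1 := by
    rw [← MonoidHom.mem_ker, hψ, Subgroup.mem_center_iff]; intro g; simp
  obtain ⟨N, hN1, hN2⟩ := es_invol hD R hS hCT hT (locFin_of_algebraic (ZMod 3) k) h2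
    (t := fm hD (algebraMap _ k) (ψ (cc 0))) (by
      rw [← map_pow, ← map_pow, show cc (0 : F) ^ 2 = -1 by rw [sq]; apply ext2 <;> simp, hm, map_one])
  obtain ⟨s, hs⟩ : ∃ s : Fin D.nroots, ex r U V a' b' s = 0 := by
    by_contra h9
    refine h4 a ha' (h8 (fun s hs => h9 ⟨s, ?_⟩) _ (((Commute.refl _).pow_pow _ _).map ψ)
      (hb.coprime_dvd_right (orderOf_dvd_of_pow_eq_one (by rw [← map_pow, ← pow_mul, ← ha, h5, map_one]))))
    rw [chi_ex R hCT hA hB hζ, ← orderOf_dvd_iff_pow_eq_one, hζ] at hs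
    exact Nat.eq_zero_of_dvd_of_lt hs (Nat.mod_lt _ (by omega))
  obtain ⟨w, hw, h9⟩ := lineChk_spec hr.out hW hb1 s.2 hs
  simp only [List.all_eq_true, allLt_iff, Bool.or_eq_true, beq_iff_eq] at hP
  obtain ⟨c, hc, h9⟩ := pairChk_spec (h9 ▸ (hP w hw a' ha1).resolve_left (by rintro rfl; simp [h9] at h6)) hN1
  obtain ⟨I, hI⟩ := IsAlgClosed.exists_pow_nat_eq (-1 : k) (n := 2) (by omega)
  let ρ : Representation k (S2 F) (D.Idx → k) := Matrix.toLinAlgEquiv'.toAlgHom.toRingHom.toMonoidHom.comp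
    ((Units.coeHom _).comp ((D.group k).subtype.comp ((fm hD (algebraMap _ k)).comp ψ)))
  have hρ : ∀ g, (ρ g).charpoly = cp (fm hD (algebraMap _ k) (ψ g)) := fun g => Matrix.charpoly_toLin' _
  have h10 := es_nonneg 3 ι h2 hd (e1.pow ι e) (e2.pow ι e) (g₂ := cc 0) (θ₂ := I) (θ₂' := -I) (α₂ := 1) (α₂' := 1)
    (β₂ := -I) (β₂' := - -I) (fun h => h2 (by linear_combination (-2) * hI + I * h))
    (eig_cc ι (by rw [map_zero]; linear_combination hI)) (eig_cc ι (by rw [map_zero]; linear_combination hI))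
    (tabF (θ ^ e) r c.1) (ind ((c.2.1 : ℤ) - c.2.2)) (fun m hm ⟨m', hm'⟩ => by
      rw [hF] at hm
      obtain rfl : m = 2 * m' := by omega
      refine (modChk_spec k (List.all_eq_true.1 hC c hc) hm).trans_eq (Finset.sum_congr rfl fun x hx => ?_)
      have h12 := (mem_Am.1 hx).1
      congr 1
      · rw [← tabF_pow hζ _ (Nat.mod_lt _ (by omega)), ← hζ, pow_mod_orderOf, hζ]
        congr 1
        have h13 : ((θ : k)⁻¹) ^ e = ((θ : k) ^ e) ^ (r - 1) := by
          rw [inv_pow]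
          exact inv_eq_of_mul_eq_one_right (by
            rw [← pow_succ', Nat.sub_add_cancel (by omega), ← pow_mul, ← he, hy.pow_eq_one])
        rw [h13, ← pow_mul _ (r - 1), ← pow_add, Units.val_pow_eq_pow_val, Units.val_pow_eq_pow_val]
        congr 1
        obtain ⟨r, rfl⟩ := Nat.exists_eq_add_of_le' hr2
        rw [Nat.add_sub_cancel, show r + 2 - 1 = r + 1 from rfl, add_mul]
        omega
      · rw [neg_pow, mul_left_comm, ← pow_add, Nat.sub_add_cancel h12, pow_mul, hI, ← pow_add, ind_pow h2]) _ _ ρ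
    (by simp only [ρ, MonoidHom.comp_apply, hm, map_one]) rfl
  rw [hρ, hρ, hN2, h7, es_tor] at h10
  refine h9.not_ge (h10.trans_eq ?_)
  rw [← tabF_pow hζ c.1 (j := 0) (by omega), pow_zero, Units.val_one]
  congr 2
  exact Finset.sum_congr rfl fun s _ => by
    rw [chi_ex R hCT hA hB hζ]; exact tabF_pow hζ _ (Nat.mod_lt _ (by omega))

end H5.E8T
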